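import Mathlib
import Cfsg.Prelude.Def_CaseTheorems
import Cfsg.Prelude.Def_LieExceptional
import Cfsg.Agent.Lib.Helper73.BSW.Defs

/-!
BSW ladder, wave 3, rung QDKEY: `qd_key`, `qd_card_quot`, `qd_D_ne_bot`.
-/

set_option autoImplicit false

namespace Cfsg.Agent.Lib.Helper71.BSW

open Cfsg Cfsg.Agent.Lib.Helper73.BSW

section
variable {G : Type*} [Group G] [Finite G] (Q D : Subgroup G)

set_option linter.unusedSectionVars false in
theorem qd_key
    (hcent : ∀ x ∈ Q, x ≠ 1 → Subgroup.centralizer ({x} : Set G) = Q)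
    (hD : 2 * Nat.card D + 1 = Nat.card Q) (hdisj : Q ⊓ D = ⊥)
    (hN : Subgroup.normalizer (Q : Set G) = Q ⊔ D) :
    (∀ a ∈ Q, ∀ b ∈ Q, a * b = b * a) ∧
    Nat.card (Subgroup.normalizer (Q : Set G)) = Nat.card Q * Nat.card D ∧
    (∀ x ∈ Subgroup.normalizer (Q : Set G), ∃ a ∈ Q, ∃ d ∈ D, x = a * d) ∧
    (∀ a ∈ Q, a ≠ 1 → ∀ g : G, g * a * g⁻¹ ∈ Subgroup.normalizer (Q : Set G) →
      g ∈ Subgroup.normalizer (Q : Set G)) := by
  have hDN : D ≤ Subgroup.normalizer (Q : Set G) := by rw [hN]; exact le_sup_right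
  have hfac : ∀ x ∈ Subgroup.normalizer (Q : Set G), ∃ a ∈ Q, ∃ d ∈ D, x = a * d := by
    intro x hx
    rw [hN] at hx
    have h1 : x ∈ ((Q ⊔ D : Subgroup G) : Set G) := hx
    rw [Subgroup.coe_mul_of_right_le_normalizer_left Q D hDN] at h1
    obtain ⟨a, ha, d, hd, rfl⟩ := h1
    exact ⟨a, ha, d, hd, rfl⟩
  have hQD : ∀ x, x ∈ Q → x ∈ D → x = 1 := by
    intro x h1 h2
    have : x ∈ Q ⊓ D := ⟨h1, h2⟩
    rw [hdisj] at this
    exact this
  have hnorm : ∀ d ∈ D, ∀ a ∈ Q, d * a * d⁻¹ ∈ Q := by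
    intro d hd a ha
    exact (Subgroup.mem_normalizer_iff.mp (hDN hd) a).mp ha
  refine ⟨?_, ?_, hfac, ?_⟩
  · intro a ha b hb
    by_cases h1 : a = 1
    · rw [h1, one_mul, mul_one]
    · have h2 : b ∈ Subgroup.centralizer ({a} : Set G) := by rw [hcent a ha h1]; exact hb
      exact Subgroup.mem_centralizer_singleton_iff.mp h2 |>.symm
  · rw [← Nat.card_prod]
    symm
    let f : Q × D → Subgroup.normalizer (Q : Set G) := fun x =>
      ⟨(x.1 : G) * (x.2 : G), Subgroup.mul_mem _ (Subgroup.le_normalizer x.1.2) (hDN x.2.2)⟩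
    apply Nat.card_congr (Equiv.ofBijective f ⟨?_, ?_⟩)
    · rintro ⟨⟨a, ha⟩, ⟨d, hd⟩⟩ ⟨⟨a', ha'⟩, ⟨d', hd'⟩⟩ h
      have h1 : a * d = a' * d' := congrArg Subtype.val h
      have h2 : a'⁻¹ * a = d' * d⁻¹ := by
        calc a'⁻¹ * a = a'⁻¹ * (a * d) * d⁻¹ := by group
          _ = d' * d⁻¹ := by rw [h1]; group
      have h3 : a'⁻¹ * a = 1 :=
        hQD _ (Q.mul_mem (Q.inv_mem ha') ha) (h2 ▸ D.mul_mem hd' (D.inv_mem hd))
      have h4 : d' * d⁻¹ = 1 := h2 ▸ h3
      have h5 : a = a' := (inv_mul_eq_one.mp h3).symm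
      have h6 : d' = d := mul_inv_eq_one.mp h4
      subst h5 h6
      rfl
    · rintro ⟨x, hx⟩
      obtain ⟨a, ha, d, hd, rfl⟩ := hfac x hx
      exact ⟨(⟨a, ha⟩, ⟨d, hd⟩), rfl⟩
  · intro a ha ha1 g hg
    obtain ⟨a', ha', d, hd, hgad⟩ := hfac _ hg
    -- powers
    have hpow : ∀ n : ℕ, ∃ u ∈ Q, (a' * d) ^ n = u * d ^ n := by
      intro n
      induction n with
      | zero => exact ⟨1, Q.one_mem, by simp⟩
      | succ n ih =>
        obtain ⟨u, hu, h⟩ := ih
        refine ⟨u * (d ^ n * a' * (d ^ n)⁻¹), Q.mul_mem hu (hnorm _ (D.pow_mem hd n) _ ha'), ?_⟩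
        rw [pow_succ, h, pow_succ]
        group
    have haq : a ^ Nat.card Q = 1 := by
      have := pow_card_eq_one' (G := Q) (x := ⟨a, ha⟩)
      exact congrArg Subtype.val this
    have h1 : (a' * d) ^ Nat.card Q = 1 := by
      rw [← hgad, conj_pow, haq]
      group
    obtain ⟨u, hu, h2⟩ := hpow (Nat.card Q)
    rw [h1] at h2
    have h3 : d ^ Nat.card Q = u⁻¹ := by
      calc d ^ Nat.card Q = u⁻¹ * (u * d ^ Nat.card Q) := by group
        _ = u⁻¹ := by rw [← h2, mul_one]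
    have h4 : d ^ Nat.card Q = 1 := hQD _ (h3 ▸ Q.inv_mem hu) (D.pow_mem hd _)
    have h5 : d ^ Nat.card D = 1 := by
      have := pow_card_eq_one' (G := D) (x := ⟨d, hd⟩)
      exact congrArg Subtype.val this
    have h6 : d = 1 := by
      rw [← hD, pow_succ, mul_comm, pow_mul, h5, one_pow, one_mul] at h4
      exact h4
    rw [h6, mul_one] at hgad
    have hb1 : g * a * g⁻¹ ≠ 1 := by
      intro h
      apply ha1
      have : a = g⁻¹ * (g * a * g⁻¹) * g := by group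
      rw [this, h]; group
    have hbQ : g * a * g⁻¹ ∈ Q := hgad ▸ ha'
    rw [Subgroup.mem_normalizer_iff]
    intro h
    have e1 : h ∈ Q ↔ h ∈ Subgroup.centralizer ({a} : Set G) := by rw [hcent a ha ha1]
    have e2 : g * h * g⁻¹ ∈ Q ↔ g * h * g⁻¹ ∈ Subgroup.centralizer ({g * a * g⁻¹} : Set G) := by
      rw [hcent _ hbQ hb1]
    show h ∈ Q ↔ g * h * g⁻¹ ∈ Q
    rw [e1, e2, Subgroup.mem_centralizer_singleton_iff, Subgroup.mem_centralizer_singleton_iff]
    constructor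
    · intro hh
      calc g * h * g⁻¹ * (g * a * g⁻¹) = g * (h * a) * g⁻¹ := by group
        _ = g * (a * h) * g⁻¹ := by rw [hh]
        _ = g * a * g⁻¹ * (g * h * g⁻¹) := by group
    · intro hh
      calc h * a = g⁻¹ * (g * h * g⁻¹ * (g * a * g⁻¹)) * g := by group
        _ = g⁻¹ * (g * a * g⁻¹ * (g * h * g⁻¹)) * g := by rw [hh]
        _ = a * h := by group

theorem qd_card_quot
    (hG : 2 * Nat.card G = Nat.card Q * (Nat.card Q + 1) * (Nat.card Q - 1))
    (hD : 2 * Nat.card D + 1 = Nat.card Q)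
    (hNc : Nat.card (Subgroup.normalizer (Q : Set G)) = Nat.card Q * Nat.card D) :
    Nat.card (G ⧸ Subgroup.normalizer (Q : Set G)) = Nat.card Q + 1 := by
  have h1 := Subgroup.card_eq_card_quotient_mul_card_subgroup (Subgroup.normalizer (Q : Set G))
  rw [hNc] at h1
  rw [h1] at hG
  have hq : 0 < Nat.card Q := Nat.card_pos
  have hd : 0 < Nat.card D := Nat.card_pos
  have h2 : Nat.card Q - 1 = 2 * Nat.card D := by omega
  rw [h2] at hG
  have h3 : (Nat.card Q * (2 * Nat.card D)) * Nat.card (G ⧸ Subgroup.normalizer (Q : Set G)) =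
      (Nat.card Q * (2 * Nat.card D)) * (Nat.card Q + 1) := by
    calc _ = 2 * (Nat.card (G ⧸ Subgroup.normalizer (Q : Set G)) * (Nat.card Q * Nat.card D)) := by
          ring
      _ = _ := by rw [hG]; ring
  exact Nat.eq_of_mul_eq_mul_left (by positivity) h3

theorem qd_D_ne_bot [IsSimpleGroup G]
    (hG : 2 * Nat.card G = Nat.card Q * (Nat.card Q + 1) * (Nat.card Q - 1))
    (hcent : ∀ x ∈ Q, x ≠ 1 → Subgroup.centralizer ({x} : Set G) = Q)
    (hD : 2 * Nat.card D + 1 = Nat.card Q)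
    (hN : Subgroup.normalizer (Q : Set G) = Q ⊔ D) : D ≠ ⊥ := by
  rintro rfl
  rw [Subgroup.card_bot] at hD
  have hq : Nat.card Q = 3 := by omega
  rw [hq] at hG
  have hG12 : Nat.card G = 12 := by omega
  rw [sup_bot_eq] at hN
  have : Fact (Nat.Prime 3) := ⟨by norm_num⟩
  have hQp : IsPGroup 3 Q := IsPGroup.of_card (n := 1) (by rw [hq]; norm_num)
  obtain ⟨P, hP⟩ := hQp.exists_le_sylow
  have hPQ : (P : Subgroup G) = Q := by
    symm
    apply Subgroup.eq_of_le_of_card_ge hP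
    rw [hq]
    obtain ⟨m, hm⟩ := IsPGroup.iff_card.mp P.2
    have h1 : Nat.card (P : Subgroup G) ∣ 12 := hG12 ▸ Subgroup.card_subgroup_dvd_card _
    rw [hm] at h1 ⊢
    have hm2 : m < 2 := by
      by_contra hcon
      have h2 : 3 ^ 2 ∣ 3 ^ m := pow_dvd_pow 3 (not_lt.mp hcon)
      have h3 := h2.trans h1
      norm_num at h3
    calc 3 ^ m ≤ 3 ^ 1 := Nat.pow_le_pow_right (by norm_num) (by omega)
      _ = 3 := by norm_num
  have hcomm : ∀ a ∈ Q, ∀ b ∈ Q, a * b = b * a := by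
    intro a ha b hb
    by_cases h1 : a = 1
    · rw [h1, one_mul, mul_one]
    · have h2 : b ∈ Subgroup.centralizer ({a} : Set G) := by rw [hcent a ha h1]; exact hb
      exact Subgroup.mem_centralizer_singleton_iff.mp h2 |>.symm
  have hNC : Subgroup.normalizer ((P : Subgroup G) : Set G) ≤
      Subgroup.centralizer ((P : Subgroup G) : Set G) := by
    rw [hPQ, hN]
    intro a ha
    rw [Subgroup.mem_centralizer_iff]
    intro b hb
    exact hcomm b hb a ha
  have hc := MonoidHom.ker_transferSylow_isComplement' P hNC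
  have hcard := hc.card_mul_card
  have hP3 : Nat.card (P : Subgroup G) = 3 := by rw [hPQ, hq]
  rw [hP3, hG12] at hcard
  rcases (MonoidHom.normal_ker (MonoidHom.transferSylow P hNC)).eq_bot_or_eq_top with h | h
  · rw [h, Subgroup.card_bot] at hcard
    omega
  · rw [h, Subgroup.card_top, hG12] at hcard
    omega

end

end Cfsg.Agent.Lib.Helper71.BSW
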