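import Mathlib
import Cfsg.Prelude.Def_CaseTheorems
import Cfsg.Prelude.Def_LieExceptional
import Cfsg.Agent.Lib.Helper73.BSW.Defs

/-!
BSW ladder, wave 3, rung QDPT: `qd_two_point`.
-/

set_option autoImplicit false

namespace Cfsg.Agent.Lib.Helper71.BSW

open Cfsg Cfsg.Agent.Lib.Helper73.BSW

section
variable {G : Type*} [Group G] [Finite G] (Q D : Subgroup G)

set_option linter.unusedSectionVars false in
/-- the point `o = u • x` and its stabiliser. -/
theorem qd_two_point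
    (hcent : ∀ x ∈ Q, x ≠ 1 → Subgroup.centralizer ({x} : Set G) = Q)
    (hdisj : Q ⊓ D = ⊥) (hN : Subgroup.normalizer (Q : Set G) = Q ⊔ D) (hD1 : D ≠ ⊥)
    (hfac : ∀ x ∈ Subgroup.normalizer (Q : Set G), ∃ a ∈ Q, ∃ d ∈ D, x = a * d)
    (hreg : ∀ y z : G ⧸ Subgroup.normalizer (Q : Set G),
      y ≠ ((1 : G) : G ⧸ Subgroup.normalizer (Q : Set G)) →
      z ≠ ((1 : G) : G ⧸ Subgroup.normalizer (Q : Set G)) → ∃! u : Q, (u : G) • y = z)
    (u : G) (huD : u ∉ D) (hinv : ∀ d ∈ D, u * d * u⁻¹ = d⁻¹) :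
    (u • ((1 : G) : G ⧸ Subgroup.normalizer (Q : Set G)) ≠ ((1 : G) : G ⧸ Subgroup.normalizer (Q : Set G))) ∧
    MulAction.stabilizer G ((1 : G) : G ⧸ Subgroup.normalizer (Q : Set G)) ⊓
      MulAction.stabilizer G (u • ((1 : G) : G ⧸ Subgroup.normalizer (Q : Set G))) = D ∧
    (∀ d ∈ D, ∀ z : G ⧸ Subgroup.normalizer (Q : Set G),
      z ≠ ((1 : G) : G ⧸ Subgroup.normalizer (Q : Set G)) →
      z ≠ u • ((1 : G) : G ⧸ Subgroup.normalizer (Q : Set G)) → d • z = z → d = 1) := by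
  set x : G ⧸ Subgroup.normalizer (Q : Set G) := ((1 : G) : G ⧸ Subgroup.normalizer (Q : Set G))
    with hx
  have hfixN : ∀ g : G, g • x = x ↔ g ∈ Subgroup.normalizer (Q : Set G) := by
    intro g
    rw [hx, MulAction.Quotient.smul_coe, smul_eq_mul, mul_one, eq_comm, QuotientGroup.eq,
      inv_one, one_mul]
  have hDN : D ≤ Subgroup.normalizer (Q : Set G) := by rw [hN]; exact le_sup_right
  have hQD : ∀ y, y ∈ Q → y ∈ D → y = 1 := by
    intro y h1 h2
    have : y ∈ Q ⊓ D := ⟨h1, h2⟩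
    rw [hdisj] at this
    exact this
  have hnorm : ∀ d ∈ D, ∀ a ∈ Q, d * a * d⁻¹ ∈ Q := by
    intro d hd a ha
    exact (Subgroup.mem_normalizer_iff.mp (hDN hd) a).mp ha
  -- `D` is abelian
  have hDcomm : ∀ d ∈ D, ∀ d' ∈ D, d * d' = d' * d := by
    intro d hd d' hd'
    have h1 := hinv (d * d') (D.mul_mem hd hd')
    have h2 : u * (d * d') * u⁻¹ = (u * d * u⁻¹) * (u * d' * u⁻¹) := by group
    rw [h2, hinv d hd, hinv d' hd', ← mul_inv_rev] at h1
    exact (inv_injective h1).symm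
  -- an element of `Q` commuting with a nontrivial element of `D` is trivial
  have hcomm1 : ∀ a ∈ Q, ∀ d ∈ D, d ≠ 1 → d * a = a * d → a = 1 := by
    intro a ha d hd hd1 h
    by_contra ha1
    apply hd1
    apply hQD d _ hd
    rw [← hcent a ha ha1, Subgroup.mem_centralizer_singleton_iff]
    exact h
  obtain ⟨d1, hd1D, hd11⟩ : ∃ d ∈ D, d ≠ 1 := by
    by_contra hcon
    push Not at hcon
    exact hD1 ((Subgroup.eq_bot_iff_forall D).mpr hcon)
  have huN : u ∉ Subgroup.normalizer (Q : Set G) := by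
    intro huN
    obtain ⟨a, ha, d0, hd0, rfl⟩ := hfac u huN
    have h1 : a * d1 * a⁻¹ = d1⁻¹ := by
      have h2 := hinv d1 hd1D
      have h3 : a * d0 * d1 * (a * d0)⁻¹ = a * (d0 * d1) * d0⁻¹ * a⁻¹ := by group
      rw [h3, hDcomm d0 hd0 d1 hd1D] at h2
      rw [← h2]; group
    have h4 : a * d1 * a⁻¹ * d1⁻¹ ∈ Q := by
      have : a * d1 * a⁻¹ * d1⁻¹ = a * (d1 * a⁻¹ * d1⁻¹) := by group
      rw [this]
      exact Q.mul_mem ha (hnorm d1 hd1D _ (Q.inv_mem ha))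
    have h5 : a * d1 * a⁻¹ * d1⁻¹ ∈ D := by
      rw [h1]
      exact D.mul_mem (D.inv_mem hd1D) (D.inv_mem hd1D)
    have h6 := hQD _ h4 h5
    have h7 : d1 * a = a * d1 := by
      calc d1 * a = (a * d1 * a⁻¹ * d1⁻¹)⁻¹ * (a * d1) := by group
        _ = a * d1 := by rw [h6, inv_one, one_mul]
    have h8 := hcomm1 a ha d1 hd1D hd11 h7
    apply huD
    rw [h8, one_mul]
    exact hd0
  have hox : u • x ≠ x := fun h => huN ((hfixN u).mp h)
  have hDo : ∀ d ∈ D, d • (u • x) = u • x := by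
    intro d hd
    have h1 : u * d⁻¹ * u⁻¹ = d := by rw [hinv _ (D.inv_mem hd), inv_inv]
    have h2 : d * u = u * d⁻¹ := by
      calc d * u = (u * d⁻¹ * u⁻¹) * u := by rw [h1]
        _ = u * d⁻¹ := by group
    rw [← mul_smul, h2, mul_smul, (hfixN d⁻¹).mpr (hDN (D.inv_mem hd))]
  have hQo : ∀ a ∈ Q, a • (u • x) = u • x → a = 1 := by
    intro a ha h
    obtain ⟨w, -, hw⟩ := hreg _ _ hox hox
    have h1 := hw ⟨a, ha⟩ h
    have h2 := hw 1 (by simp)
    have h3 : (⟨a, ha⟩ : Q) = 1 := h1.trans h2.symm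
    exact congrArg Subtype.val h3
  have hstab : MulAction.stabilizer G x ⊓ MulAction.stabilizer G (u • x) = D := by
    ext g
    rw [Subgroup.mem_inf, MulAction.mem_stabilizer_iff, MulAction.mem_stabilizer_iff]
    constructor
    · rintro ⟨h1, h2⟩
      obtain ⟨a, ha, d, hd, rfl⟩ := hfac g ((hfixN g).mp h1)
      rw [mul_smul, hDo d hd] at h2
      rw [hQo a ha h2, one_mul]
      exact hd
    · intro hg
      exact ⟨(hfixN g).mpr (hDN hg), hDo g hg⟩
  refine ⟨hox, hstab, ?_⟩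
  intro d hd z hz hzo hdz
  obtain ⟨a, ha, -⟩ := hreg _ _ hox hz
  have ha1 : (a : G) ≠ 1 := by
    intro h
    apply hzo
    rw [← ha, h, one_smul]
  have h1 : (a : G)⁻¹ * d * (a : G) ∈ D := by
    rw [← hstab, Subgroup.mem_inf, MulAction.mem_stabilizer_iff, MulAction.mem_stabilizer_iff]
    constructor
    · apply (hfixN _).mpr
      exact Subgroup.mul_mem _ (Subgroup.mul_mem _
        (Subgroup.inv_mem _ (Subgroup.le_normalizer a.2)) (hDN hd)) (Subgroup.le_normalizer a.2)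
    · rw [mul_smul, mul_smul, ha, hdz, ← ha, inv_smul_smul]
  have h2 : (a : G)⁻¹ * d * (a : G) * d⁻¹ ∈ Q := by
    have : (a : G)⁻¹ * d * (a : G) * d⁻¹ = (a : G)⁻¹ * (d * (a : G) * d⁻¹) := by group
    rw [this]
    exact Q.mul_mem (Q.inv_mem a.2) (hnorm d hd _ a.2)
  have h3 := hQD _ h2 (D.mul_mem h1 (D.inv_mem hd))
  have h4 : d * (a : G) = (a : G) * d := by
    calc d * (a : G) = (a : G) * ((a : G)⁻¹ * d * (a : G) * d⁻¹) * d := by group
      _ = (a : G) * d := by rw [h3, mul_one]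
  by_contra hd1
  exact ha1 (hcomm1 a a.2 d hd hd1 h4)

end

end Cfsg.Agent.Lib.Helper71.BSW
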