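import Mathlib
import Cfsg.Prelude.Def_CaseTheorems
import Cfsg.Prelude.Def_LieExceptional
import Cfsg.Agent.Lib.Helper73.BSW.Defs

/-!
BSW ladder, wave 3, rung QDREG: `qd_reg`, `qd_two_trans`.
-/

set_option autoImplicit false

namespace Cfsg.Agent.Lib.Helper71.BSW

open Cfsg Cfsg.Agent.Lib.Helper73.BSW

section
variable {G : Type*} [Group G] [Finite G] (Q D : Subgroup G)

theorem qd_reg
    (hcq : Nat.card (G ⧸ Subgroup.normalizer (Q : Set G)) = Nat.card Q + 1)
    (hTI : ∀ a ∈ Q, a ≠ 1 → ∀ g : G, g * a * g⁻¹ ∈ Subgroup.normalizer (Q : Set G) →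
      g ∈ Subgroup.normalizer (Q : Set G)) :
    ∀ y z : G ⧸ Subgroup.normalizer (Q : Set G),
      y ≠ ((1 : G) : G ⧸ Subgroup.normalizer (Q : Set G)) →
      z ≠ ((1 : G) : G ⧸ Subgroup.normalizer (Q : Set G)) → ∃! u : Q, (u : G) • y = z := by
  classical
  intro y z hy hz
  set x : G ⧸ Subgroup.normalizer (Q : Set G) := ((1 : G) : G ⧸ Subgroup.normalizer (Q : Set G))
    with hx
  have hfixN : ∀ g : G, g • x = x ↔ g ∈ Subgroup.normalizer (Q : Set G) := by
    intro g
    rw [hx, MulAction.Quotient.smul_coe, smul_eq_mul, mul_one, eq_comm, QuotientGroup.eq,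
      inv_one, one_mul]
  have hQx : ∀ u : Q, (u : G) • x = x := fun u => (hfixN u).mpr (Subgroup.le_normalizer u.2)
  have hne : ∀ u : Q, (u : G) • y ≠ x := by
    intro u h
    apply hy
    calc y = (u : G)⁻¹ • ((u : G) • y) := by rw [inv_smul_smul]
      _ = (u : G)⁻¹ • ((u : G) • x) := by rw [h, hQx]
      _ = x := by rw [inv_smul_smul]
  let f : Q → {w : G ⧸ Subgroup.normalizer (Q : Set G) // w ≠ x} := fun u => ⟨(u : G) • y, hne u⟩
  have hinj : Function.Injective f := by
    intro u u' h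
    have h1 : (u : G) • y = (u' : G) • y := congrArg Subtype.val h
    by_contra hne'
    obtain ⟨g, rfl⟩ := QuotientGroup.mk_surjective y
    have h2 : ((u' : G)⁻¹ * (u : G)) • ((g : G) : G ⧸ Subgroup.normalizer (Q : Set G)) = g := by
      rw [mul_smul, h1, inv_smul_smul]
    have h3 : g⁻¹ * ((u' : G)⁻¹ * (u : G)) * g⁻¹⁻¹ ∈ Subgroup.normalizer (Q : Set G) := by
      rw [MulAction.Quotient.smul_coe, smul_eq_mul, eq_comm, QuotientGroup.eq] at h2
      rw [inv_inv]
      rw [mul_assoc]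
      exact h2
    have h4 : (u' : G)⁻¹ * (u : G) ≠ 1 := by
      intro h
      apply hne'
      exact Subtype.ext (inv_mul_eq_one.mp h).symm
    have h5 := hTI _ (Q.mul_mem (Q.inv_mem u'.2) u.2) h4 g⁻¹ h3
    apply hy
    rw [hx, eq_comm, QuotientGroup.eq, inv_one, one_mul]
    exact (Subgroup.inv_mem_iff _).mp h5
  have hcard : Nat.card Q = Nat.card {w : G ⧸ Subgroup.normalizer (Q : Set G) // w ≠ x} := by
    have h1 : Nat.card {w : G ⧸ Subgroup.normalizer (Q : Set G) // w ≠ x} =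
        Nat.card (G ⧸ Subgroup.normalizer (Q : Set G)) - 1 := by
      have := Fintype.ofFinite (G ⧸ Subgroup.normalizer (Q : Set G))
      rw [Nat.card_eq_fintype_card, Nat.card_eq_fintype_card, Fintype.card_subtype_compl,
        Fintype.card_subtype_eq]
    rw [h1, hcq]
    omega
  have hbij : Function.Bijective f := hinj.bijective_of_nat_card_le hcard.ge
  obtain ⟨u, hu⟩ := hbij.2 ⟨z, hz⟩
  refine ⟨u, congrArg Subtype.val hu, ?_⟩
  intro u' hu'
  apply hinj
  rw [hu]
  exact Subtype.ext hu'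

set_option linter.unusedSectionVars false in
set_option linter.unusedVariables false in
theorem qd_two_trans
    (hcq : Nat.card (G ⧸ Subgroup.normalizer (Q : Set G)) = Nat.card Q + 1)
    (hreg : ∀ y z : G ⧸ Subgroup.normalizer (Q : Set G),
      y ≠ ((1 : G) : G ⧸ Subgroup.normalizer (Q : Set G)) →
      z ≠ ((1 : G) : G ⧸ Subgroup.normalizer (Q : Set G)) → ∃! u : Q, (u : G) • y = z) :
    MulAction.IsMultiplyPretransitive G (G ⧸ Subgroup.normalizer (Q : Set G)) 2 := by
  rw [MulAction.is_two_pretransitive_iff]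
  intro a b c d hab hcd
  set x : G ⧸ Subgroup.normalizer (Q : Set G) := ((1 : G) : G ⧸ Subgroup.normalizer (Q : Set G))
    with hx
  have hfixN : ∀ g : G, g • x = x ↔ g ∈ Subgroup.normalizer (Q : Set G) := by
    intro g
    rw [hx, MulAction.Quotient.smul_coe, smul_eq_mul, mul_one, eq_comm, QuotientGroup.eq,
      inv_one, one_mul]
  obtain ⟨g1, hg1⟩ := MulAction.exists_smul_eq G a x
  obtain ⟨g2, hg2⟩ := MulAction.exists_smul_eq G c x
  have h1 : g1 • b ≠ x := by
    intro h
    apply hab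
    rw [← hg1] at h
    exact (smul_left_cancel g1 h).symm
  have h2 : g2 • d ≠ x := by
    intro h
    apply hcd
    rw [← hg2] at h
    exact (smul_left_cancel g2 h).symm
  obtain ⟨u, hu, -⟩ := hreg _ _ h1 h2
  refine ⟨g2⁻¹ * (u : G) * g1, ?_, ?_⟩
  · rw [mul_smul, mul_smul, hg1, (hfixN u).mpr (Subgroup.le_normalizer u.2), ← hg2, inv_smul_smul]
  · rw [mul_smul, mul_smul, hu, inv_smul_smul]

end

end Cfsg.Agent.Lib.Helper71.BSW
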