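import Mathlib
import Cfsg.Prelude.Def_CaseTheorems
import Cfsg.Prelude.Def_LieExceptional
import Cfsg.Agent.Lib.Helper73.BSW.Defs

/-!
BSW ladder, wave 3, rung QDZ: `qd_zass`.
-/

set_option autoImplicit false

namespace Cfsg.Agent.Lib.Helper71.BSW

open Cfsg Cfsg.Agent.Lib.Helper73.BSW

section
variable {G : Type*} [Group G] [Finite G] (Q D : Subgroup G)

set_option linter.unusedSectionVars false in
set_option linter.unusedVariables false in
theorem qd_zass [IsSimpleGroup G] (hD1 : D ≠ ⊥)
    (hcq : Nat.card (G ⧸ Subgroup.normalizer (Q : Set G)) = Nat.card Q + 1)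
    (h2t : MulAction.IsMultiplyPretransitive G (G ⧸ Subgroup.normalizer (Q : Set G)) 2)
    (o : G ⧸ Subgroup.normalizer (Q : Set G))
    (ho : o ≠ ((1 : G) : G ⧸ Subgroup.normalizer (Q : Set G)))
    (hst : MulAction.stabilizer G ((1 : G) : G ⧸ Subgroup.normalizer (Q : Set G)) ⊓
      MulAction.stabilizer G o = D)
    (h3 : ∀ d ∈ D, ∀ z : G ⧸ Subgroup.normalizer (Q : Set G),
      z ≠ ((1 : G) : G ⧸ Subgroup.normalizer (Q : Set G)) → z ≠ o → d • z = z → d = 1) :
    Cfsg.IsZassenhausGroup G (G ⧸ Subgroup.normalizer (Q : Set G)) := by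
  set x : G ⧸ Subgroup.normalizer (Q : Set G) := ((1 : G) : G ⧸ Subgroup.normalizer (Q : Set G))
    with hx
  obtain ⟨d1, hd1D, hd11⟩ : ∃ d ∈ D, d ≠ 1 := by
    by_contra hcon
    push Not at hcon
    exact hD1 ((Subgroup.eq_bot_iff_forall D).mpr hcon)
  have hd1st : d1 • x = x ∧ d1 • o = o := by
    have : d1 ∈ MulAction.stabilizer G x ⊓ MulAction.stabilizer G o := by rw [hst]; exact hd1D
    rw [Subgroup.mem_inf, MulAction.mem_stabilizer_iff, MulAction.mem_stabilizer_iff] at this
    exact this
  have h2 : ∀ {a b c d : G ⧸ Subgroup.normalizer (Q : Set G)}, a ≠ b → c ≠ d →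
      ∃ g : G, g • a = c ∧ g • b = d := MulAction.is_two_pretransitive_iff.mp h2t
  refine ⟨?_, h2t, ?_, ⟨d1, hd11, x, o, ho.symm, hd1st.1, hd1st.2⟩, ?_⟩
  · -- faithful
    have hker := (MonoidHom.normal_ker
      (MulAction.toPermHom G (G ⧸ Subgroup.normalizer (Q : Set G)))).eq_bot_or_eq_top
    rcases hker with h | h
    · constructor
      intro g g' hgg
      have h1 : MulAction.toPermHom G (G ⧸ Subgroup.normalizer (Q : Set G)) g =
          MulAction.toPermHom G (G ⧸ Subgroup.normalizer (Q : Set G)) g' := by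
        ext a
        exact hgg a
      exact (MonoidHom.ker_eq_bot_iff _).mp h h1
    · exfalso
      obtain ⟨g, hg⟩ := MulAction.exists_smul_eq G x o
      have h1 : g ∈ (MulAction.toPermHom G (G ⧸ Subgroup.normalizer (Q : Set G))).ker := by
        rw [h]; trivial
      rw [MonoidHom.mem_ker] at h1
      have h4 := congrArg (fun σ : Equiv.Perm (G ⧸ Subgroup.normalizer (Q : Set G)) => σ x) h1
      have h5 : g • x = x := h4
      exact ho (hg.symm.trans h5)
  · intro g a b c hab hbc hac hga hgb hgc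
    obtain ⟨h, hha, hhb⟩ := h2 hab ho.symm
    have h4 : h * g * h⁻¹ ∈ D := by
      rw [← hst, Subgroup.mem_inf, MulAction.mem_stabilizer_iff, MulAction.mem_stabilizer_iff]
      constructor
      · rw [mul_smul, mul_smul, ← hha, inv_smul_smul, hga]
      · rw [mul_smul, mul_smul, ← hhb, inv_smul_smul, hgb]
    have h5 : h * g * h⁻¹ = 1 := by
      apply h3 _ h4 (h • c)
      · rw [← hha]
        intro hh
        exact hac (smul_left_cancel h hh).symm
      · rw [← hhb]
        intro hh
        exact hbc (smul_left_cancel h hh).symm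
      · rw [mul_smul, mul_smul, inv_smul_smul, hgc]
    calc g = h⁻¹ * (h * g * h⁻¹) * h := by group
      _ = 1 := by rw [h5]; group
  · intro N' hN' htr
    rcases hN'.eq_bot_or_eq_top with h | h
    · exfalso
      subst h
      obtain ⟨g, hg⟩ := htr.exists_smul_eq x o
      have h1 : (g : G) = 1 := Subgroup.mem_bot.mp g.2
      have h4 : (g : G) • x = o := hg
      rw [h1, one_smul] at h4
      exact ho h4.symm
    · subst h
      refine ⟨x, ?_⟩
      intro hbot
      have h1 : (⟨d1, Subgroup.mem_top d1⟩ : (⊤ : Subgroup G)) ∈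
          (⊥ : Subgroup (⊤ : Subgroup G)) := by
        rw [← hbot, MulAction.mem_stabilizer_iff]
        exact hd1st.1
      rw [Subgroup.mem_bot] at h1
      exact hd11 (congrArg Subtype.val h1)

end

end Cfsg.Agent.Lib.Helper71.BSW
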