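import Mathlib
import Cfsg.Agent.Lib.Helper76.Hup.Defs
import Cfsg.Agent.Lib.Helper3.RankTwoFitting

/-!
HUP ladder (helper76), rung FIT: `exists_normal_rgroup`.
-/

set_option autoImplicit false
set_option linter.unusedSectionVars false

namespace Cfsg.Agent.Lib.Helper71.Hup

open Cfsg.Agent.Lib.Helper76.Hup

/-- RUNG FIT : an element of prime order `p` of a solvable group `G` with no normal
`p`-subgroup moves some normal `r`-subgroup -/
theorem exists_normal_rgroup {Γ : Type*} [Group Γ] [Finite Γ] (G : Subgroup Γ)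
    (hsol : Group.IsSolvable G) {p : ℕ} [Fact p.Prime]
    (hOp : ∀ Q : Subgroup Γ, Q ≤ G → (∀ g ∈ G, ∀ a ∈ Q, g * a * g⁻¹ ∈ Q) → IsPGroup p Q → Q = ⊥)
    (x : Γ) (hxG : x ∈ G) (hx : orderOf x = p) :
    ∃ (r : ℕ) (_ : Fact r.Prime) (R : Subgroup Γ), R ≤ G ∧ (∀ g ∈ G, ∀ a ∈ R, g * a * g⁻¹ ∈ R) ∧
      IsPGroup r R ∧ ∃ a ∈ R, x * a ≠ a * x := by
  by_contra hcon
  push Not at hcon
  -- facts on the image of a core
  have hle : ∀ r : ℕ, (Cfsg.pCore r G).map G.subtype ≤ G := by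
    intro r
    exact Subgroup.map_subtype_le _
  have hnorm : ∀ r : ℕ, ∀ g ∈ G, ∀ a ∈ (Cfsg.pCore r G).map G.subtype,
      g * a * g⁻¹ ∈ (Cfsg.pCore r G).map G.subtype := by
    intro r g hg a ha
    obtain ⟨b, hb, rfl⟩ := ha
    have := Cfsg.Agent.Lib.Helper1.pCore_normal r G
    exact ⟨⟨g, hg⟩ * b * ⟨g, hg⟩⁻¹, this.conj_mem b hb ⟨g, hg⟩, rfl⟩
  have hpg : ∀ r : ℕ, IsPGroup r ((Cfsg.pCore r G).map G.subtype) := by
    intro r
    exact (Cfsg.Agent.Lib.Helper1.pCore_isPGroup r G).map _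
  have hcent : (⟨x, hxG⟩ : G) ∈ Subgroup.centralizer (Cfsg.fittingSubgroup G : Set G) := by
    have h1 : Cfsg.fittingSubgroup G ≤ Subgroup.centralizer {(⟨x, hxG⟩ : G)} := by
      rw [Cfsg.Agent.Lib.Helper1.fitting_eq_iSup_pCore]
      apply iSup_le
      intro r b hb
      rw [Subgroup.mem_centralizer_singleton_iff]
      have := hcon r ⟨r.2⟩ _ (hle r) (hnorm r) (hpg r) b ⟨b, hb, rfl⟩
      apply Subtype.ext
      simpa using this.symm
    rw [Subgroup.mem_centralizer_iff]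
    intro b hb
    have := h1 hb
    rw [Subgroup.mem_centralizer_singleton_iff] at this
    exact this
  have hfit := Cfsg.Agent.S0044.result hcent
  have hxp : (⟨x, hxG⟩ : G) ^ p ^ 1 = 1 := by
    apply Subtype.ext
    simp only [pow_one, Subgroup.coe_pow, Subgroup.coe_one]
    rw [← hx]
    exact pow_orderOf_eq_one x
  have hcore := Cfsg.Agent.Lib.Helper3.mem_pCore_of_mem_fitting hfit hxp
  have hbot := hOp _ (hle p) (hnorm p) (hpg p)
  have hx1 : x ∈ (Cfsg.pCore p G).map G.subtype := ⟨⟨x, hxG⟩, hcore, rfl⟩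
  rw [hbot, Subgroup.mem_bot] at hx1
  rw [hx1, orderOf_one] at hx
  exact (Fact.out : p.Prime).one_lt.ne hx

end Cfsg.Agent.Lib.Helper71.Hup
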