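import Mathlib
import Cfsg.Agent.Lib.Helper76.Hup.Defs
import Cfsg.Agent.Lib.Helper36.BSWMaxint

/-!
HUP ladder (helper76), rung MA: `exists_minD`, `minD_gen`, `minD_cent_central`.
-/

set_option autoImplicit false
set_option linter.unusedSectionVars false

namespace Cfsg.Agent.Lib.Helper71.Hup

open Cfsg.Agent.Lib.Helper76.Hup

section grp
variable {Γ : Type*} [Group Γ] [Finite Γ]

theorem conj_mem_of_mem_zpowers {y x : Γ} (hxy : x ∈ Subgroup.zpowers y) {D : Subgroup Γ}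
    (hinv : ∀ a ∈ D, y * a * y⁻¹ ∈ D) : ∀ a ∈ D, x * a * x⁻¹ ∈ D := by
  obtain ⟨k, hk⟩ := (mem_powers_iff_mem_zpowers).mpr hxy
  have hk' : y ^ k = x := hk
  clear hk hxy
  subst hk'
  induction k with
  | zero => intro a ha; simpa using ha
  | succ k ih =>
    intro a ha
    have h1 := hinv _ (ih a ha)
    have h2 : y ^ (k + 1) * a * (y ^ (k + 1))⁻¹ = y * (y ^ k * a * (y ^ k)⁻¹) * y⁻¹ := by
      rw [pow_succ']; group
    rw [h2]; exact h1

theorem mem_normalizer_of_conj_mem {y : Γ} {D : Subgroup Γ}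
    (hinv : ∀ a ∈ D, y * a * y⁻¹ ∈ D) : y ∈ Subgroup.normalizer (D : Set Γ) := by
  rw [Subgroup.mem_normalizer_iff]
  intro a
  refine ⟨hinv a, fun h => ?_⟩
  have h1 := conj_mem_of_mem_zpowers (x := y⁻¹)
    (Subgroup.inv_mem _ (Subgroup.mem_zpowers y)) hinv _ h
  have h2 : y⁻¹ * (y * a * y⁻¹) * y⁻¹⁻¹ = a := by group
  rwa [h2] at h1

theorem commute_of_mem_zpowers {y x : Γ} (hxy : x ∈ Subgroup.zpowers y) : y * x = x * y := by
  obtain ⟨k, rfl⟩ := hxy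
  exact ((Commute.refl y).zpow_right k).eq

/-- RUNG M0 -/
theorem exists_minD (y x : Γ) (R : Subgroup Γ) (hyR : ∀ a ∈ R, y * a * y⁻¹ ∈ R)
    (hxR : ∃ a ∈ R, x * a ≠ a * x) : ∃ D : Subgroup Γ, D ≤ R ∧ MinD y x D := by
  induction hn : Nat.card R using Nat.strong_induction_on generalizing R with
  | _ n ih =>
    by_cases h : ∃ D₀ : Subgroup Γ, D₀ < R ∧ (∀ a ∈ D₀, y * a * y⁻¹ ∈ D₀) ∧
        ∃ a ∈ D₀, x * a ≠ a * x
    · obtain ⟨D₀, hlt, hinv, hnc⟩ := h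
      have hcard : Nat.card D₀ < n := by
        rw [← hn]
        exact Set.ncard_lt_ncard hlt (Set.toFinite _)
      obtain ⟨D, hD, hm⟩ := ih (Nat.card D₀) hcard D₀ hinv hnc rfl
      exact ⟨D, hD.trans hlt.le, hm⟩
    · push Not at h
      exact ⟨R, le_rfl, hyR, hxR, fun D₀ hlt hinv a ha => h D₀ hlt hinv a ha⟩

/-- RUNG M1 : `D = [D, x]` -/
theorem minD_gen {p r : ℕ} [Fact p.Prime] [Fact r.Prime] (hpr : p ≠ r) {y x : Γ}
    (hxy : x ∈ Subgroup.zpowers y) (hx : orderOf x = p) {D : Subgroup Γ} (hD : IsPGroup r D)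
    (h : MinD y x D) (K : Subgroup Γ) (hK : ∀ a ∈ D, x * a * x⁻¹ * a⁻¹ ∈ K) : D ≤ K := by
  have hxD := conj_mem_of_mem_zpowers hxy h.inv
  have hyx := commute_of_mem_zpowers hxy
  set K0 : Subgroup Γ := Subgroup.closure {g | ∃ a ∈ D, g = x * a * x⁻¹ * a⁻¹} with hK0
  have hK0D : K0 ≤ D := by
    rw [hK0, Subgroup.closure_le]
    rintro _ ⟨a, ha, rfl⟩
    exact D.mul_mem (hxD a ha) (D.inv_mem ha)
  have hK0K : K0 ≤ K := by
    rw [hK0, Subgroup.closure_le]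
    rintro _ ⟨a, ha, rfl⟩
    exact hK a ha
  have hK0inv : ∀ a ∈ K0, y * a * y⁻¹ ∈ K0 := by
    have hle : K0 ≤ K0.comap (MulAut.conj y).toMonoidHom := by
      rw [hK0, Subgroup.closure_le]
      rintro _ ⟨a, ha, rfl⟩
      show y * (x * a * x⁻¹ * a⁻¹) * y⁻¹ ∈ Subgroup.closure {g | ∃ a ∈ D, g = x * a * x⁻¹ * a⁻¹}
      apply Subgroup.subset_closure
      refine ⟨y * a * y⁻¹, h.inv a ha, ?_⟩
      have e1 : y * x⁻¹ = x⁻¹ * y := by
        calc y * x⁻¹ = x⁻¹ * (x * y) * x⁻¹ := by group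
          _ = x⁻¹ * (y * x) * x⁻¹ := by rw [hyx]
          _ = x⁻¹ * y := by group
      calc y * (x * a * x⁻¹ * a⁻¹) * y⁻¹ = (y * x) * a * x⁻¹ * a⁻¹ * y⁻¹ := by group
        _ = (x * y) * a * x⁻¹ * a⁻¹ * y⁻¹ := by rw [hyx]
        _ = x * y * a * (y⁻¹ * (y * x⁻¹)) * a⁻¹ * y⁻¹ := by group
        _ = x * y * a * (y⁻¹ * (x⁻¹ * y)) * a⁻¹ * y⁻¹ := by rw [e1]
        _ = x * (y * a * y⁻¹) * x⁻¹ * (y * a * y⁻¹)⁻¹ := by group
    intro a ha
    exact hle ha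
  rcases hK0D.lt_or_eq with hlt | heq
  · exfalso
    have hcent := h.min K0 hlt hK0inv
    obtain ⟨a, ha, hna⟩ := h.nc
    apply hna
    set c := x * a * x⁻¹ * a⁻¹ with hc
    have hcK0 : c ∈ K0 := Subgroup.subset_closure ⟨a, ha, rfl⟩
    have hxc : x * c = c * x := hcent c hcK0
    have hpow : ∀ i : ℕ, x ^ i * a * (x ^ i)⁻¹ = c ^ i * a := by
      intro i
      induction i with
      | zero => simp
      | succ i ih =>
        have hxci : x * c ^ i = c ^ i * x := ((show Commute x c from hxc).pow_right i).eq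
        calc x ^ (i + 1) * a * (x ^ (i + 1))⁻¹ = x * (x ^ i * a * (x ^ i)⁻¹) * x⁻¹ := by
              rw [pow_succ']; group
          _ = x * (c ^ i * a) * x⁻¹ := by rw [ih]
          _ = (x * c ^ i) * a * x⁻¹ := by group
          _ = (c ^ i * x) * a * x⁻¹ := by rw [hxci]
          _ = c ^ i * (x * a * x⁻¹ * a⁻¹) * a := by group
          _ = c ^ (i + 1) * a := by rw [← hc, pow_succ]
    have hcp : c ^ p = 1 := by
      have h1 := hpow p
      have hxp : x ^ p = 1 := by rw [← hx]; exact pow_orderOf_eq_one x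
      rw [hxp] at h1
      simp only [one_mul, inv_one, mul_one] at h1
      exact (mul_eq_right.mp h1.symm)
    obtain ⟨k, hk⟩ := hD ⟨c, hK0D hcK0⟩
    have hck : c ^ r ^ k = 1 := by
      have := congrArg Subtype.val hk
      simpa using this
    have hcop : Nat.Coprime p (r ^ k) :=
      Nat.Coprime.pow_right k ((Nat.coprime_primes Fact.out Fact.out).mpr hpr)
    have hc1 : c = 1 := by
      have h1 : orderOf c ∣ p := orderOf_dvd_of_pow_eq_one hcp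
      have h2 : orderOf c ∣ r ^ k := orderOf_dvd_of_pow_eq_one hck
      exact orderOf_eq_one_iff.mp (Nat.eq_one_of_dvd_coprimes hcop h1 h2)
    calc x * a = (x * a * x⁻¹ * a⁻¹) * (a * x) := by group
      _ = a * x := by rw [← hc, hc1, one_mul]
  · rw [← heq]; exact hK0K

/-- RUNG M2 : `C_D(x) ≤ Z(D)` -/
theorem minD_cent_central {p r : ℕ} [Fact p.Prime] [Fact r.Prime] (hpr : p ≠ r) {y x : Γ}
    (hxy : x ∈ Subgroup.zpowers y) (hx : orderOf x = p) {D : Subgroup Γ} (hD : IsPGroup r D)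
    (h : MinD y x D) : ∀ c ∈ D, x * c = c * x → ∀ d ∈ D, c * d = d * c := by
  have hyx := commute_of_mem_zpowers hxy
  set C0 : Subgroup Γ := D ⊓ Subgroup.centralizer ({x} : Set Γ) with hC0
  have hmemC0 : ∀ c, c ∈ C0 ↔ c ∈ D ∧ c * x = x * c := by
    intro c
    rw [hC0, Subgroup.mem_inf, Subgroup.mem_centralizer_singleton_iff]
  have hC0lt : C0 < D := by
    refine lt_of_le_of_ne inf_le_left ?_
    intro heq
    obtain ⟨a, ha, hna⟩ := h.nc
    apply hna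
    have : a ∈ C0 := by rw [heq]; exact ha
    exact ((hmemC0 a).mp this).2.symm
  have hC0inv : ∀ a ∈ C0, y * a * y⁻¹ ∈ C0 := by
    intro a ha
    obtain ⟨haD, hax⟩ := (hmemC0 a).mp ha
    refine (hmemC0 _).mpr ⟨h.inv a haD, ?_⟩
    have e1 : y⁻¹ * x = x * y⁻¹ := by
      calc y⁻¹ * x = y⁻¹ * (x * y) * y⁻¹ := by group
        _ = y⁻¹ * (y * x) * y⁻¹ := by rw [hyx]
        _ = x * y⁻¹ := by group
    calc y * a * y⁻¹ * x = y * a * (y⁻¹ * x) := by group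
      _ = y * a * (x * y⁻¹) := by rw [e1]
      _ = y * (a * x) * y⁻¹ := by group
      _ = y * (x * a) * y⁻¹ := by rw [hax]
      _ = (y * x) * a * y⁻¹ := by group
      _ = (x * y) * a * y⁻¹ := by rw [hyx]
      _ = x * (y * a * y⁻¹) := by group
  -- `C0` is normal in `D`
  have hN : D ⊓ Subgroup.normalizer (C0 : Set Γ) = D := by
    by_contra hne
    have hlt : D ⊓ Subgroup.normalizer (C0 : Set Γ) < D := lt_of_le_of_ne inf_le_left hne
    have hyN : y ∈ Subgroup.normalizer (C0 : Set Γ) := mem_normalizer_of_conj_mem hC0inv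
    have hinv : ∀ a ∈ D ⊓ Subgroup.normalizer (C0 : Set Γ),
        y * a * y⁻¹ ∈ D ⊓ Subgroup.normalizer (C0 : Set Γ) := by
      intro a ha
      exact ⟨h.inv a ha.1, Subgroup.mul_mem _ (Subgroup.mul_mem _ hyN ha.2)
        (Subgroup.inv_mem _ hyN)⟩
    have hcent := h.min _ hlt hinv
    obtain ⟨g, hgD, hgN, hgC⟩ := Cfsg.Agent.Lib.Helper36.BSW.exists_normalizing r hD hC0lt
    exact hgC ((hmemC0 g).mpr ⟨hgD, (hcent g ⟨hgD, hgN⟩).symm⟩)
  intro c hcD hxc d hd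
  have hcC0 : c ∈ C0 := (hmemC0 c).mpr ⟨hcD, hxc.symm⟩
  have hle : D ≤ Subgroup.centralizer ({c} : Set Γ) := by
    apply minD_gen hpr hxy hx hD h
    intro a ha
    rw [Subgroup.mem_centralizer_singleton_iff]
    have haN : a⁻¹ ∈ Subgroup.normalizer (C0 : Set Γ) := by
      have : a⁻¹ ∈ D ⊓ Subgroup.normalizer (C0 : Set Γ) := by rw [hN]; exact D.inv_mem ha
      exact this.2
    have hc' : a⁻¹ * c * a⁻¹⁻¹ ∈ C0 := (Subgroup.mem_normalizer_iff.mp haN c).mp hcC0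
    have hc'x : (a⁻¹ * c * a⁻¹⁻¹) * x = x * (a⁻¹ * c * a⁻¹⁻¹) := ((hmemC0 _).mp hc').2
    have key : (x * a * x⁻¹ * a⁻¹) * c * (x * a * x⁻¹ * a⁻¹)⁻¹ = c := by
      calc (x * a * x⁻¹ * a⁻¹) * c * (x * a * x⁻¹ * a⁻¹)⁻¹
          = x * a * x⁻¹ * ((a⁻¹ * c * a⁻¹⁻¹) * x) * a⁻¹ * x⁻¹ := by group
        _ = x * a * x⁻¹ * (x * (a⁻¹ * c * a⁻¹⁻¹)) * a⁻¹ * x⁻¹ := by rw [hc'x]
        _ = (x * c) * x⁻¹ := by group
        _ = (c * x) * x⁻¹ := by rw [hxc]
        _ = c := by group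
    calc (x * a * x⁻¹ * a⁻¹) * c
        = ((x * a * x⁻¹ * a⁻¹) * c * (x * a * x⁻¹ * a⁻¹)⁻¹) * (x * a * x⁻¹ * a⁻¹) := by group
      _ = c * (x * a * x⁻¹ * a⁻¹) := by rw [key]
  exact (Subgroup.mem_centralizer_singleton_iff.mp (hle hd)).symm

end grp

end Cfsg.Agent.Lib.Helper71.Hup
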