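import Mathlib
import Cfsg.Agent.Lib.Helper76.Hup.Defs
import Cfsg.Agent.Lib.Helper71.HupMA

/-!
HUP ladder (helper76), rung M5: `dvd_card_sub_card_cent`.
-/

set_option autoImplicit false
set_option linter.unusedSectionVars false

namespace Cfsg.Agent.Lib.Helper71.Hup

open Cfsg.Agent.Lib.Helper76.Hup

/-- the order of a group acting freely divides the size of the set -/
theorem card_dvd_of_free {H X : Type*} [Group H] [Finite H] [Finite X] [MulAction H X]
    (hfree : ∀ (h : H) (a : X), h • a = a → h = 1) : Nat.card H ∣ Nat.card X := by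
  classical
  have := Fintype.ofFinite H
  have := Fintype.ofFinite X
  have hb := MulAction.sum_card_fixedBy_eq_card_orbits_mul_card_group H X
  rw [Finset.sum_eq_single (1 : H)] at hb
  · have h1 : Fintype.card (MulAction.fixedBy X (1 : H)) = Fintype.card X := by
      apply Fintype.card_congr
      exact (Equiv.subtypeUnivEquiv (fun a => by simp))
    rw [h1] at hb
    rw [Nat.card_eq_fintype_card, Nat.card_eq_fintype_card, hb]
    exact Dvd.intro_left _ rfl
  · intro h _ hh
    rw [Fintype.card_eq_zero_iff]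
    constructor
    rintro ⟨a, ha⟩
    exact hh (hfree h a ha)
  · intro h
    exact absurd (Finset.mem_univ _) h

section grp
variable {Γ : Type*} [Group Γ] [Finite Γ]

/-- RUNG M5 : `⟨y⟩` is semiregular on `D ∖ C_D(x)` -/
theorem dvd_card_sub_card_cent {p s : ℕ} [Fact p.Prime] {y : Γ} (hy : orderOf y = p ^ (s + 1))
    {D : Subgroup Γ} (hinv : ∀ a ∈ D, y * a * y⁻¹ ∈ D) :
    p ^ (s + 1) ∣ Nat.card D -
      Nat.card (D ⊓ Subgroup.centralizer ({y ^ p ^ s} : Set Γ) : Subgroup Γ) := by
  have hp : p.Prime := Fact.out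
  set x := y ^ p ^ s with hx
  have hxp : x ^ p = 1 := by
    rw [hx, ← pow_mul, ← pow_succ, ← hy]
    exact pow_orderOf_eq_one y
  have hxz : x ∈ Subgroup.zpowers y := Subgroup.pow_mem _ (Subgroup.mem_zpowers y) _
  -- elements of `⟨y⟩` commute with `x`
  have hcomm : ∀ h ∈ Subgroup.zpowers y, h * x = x * h := by
    rintro _ ⟨k, rfl⟩
    exact (((Commute.refl y).zpow_left k).pow_right _).eq
  -- a nontrivial element of `⟨y⟩` commuting with `a` forces `x` to commute with `a`
  have hkey : ∀ h ∈ Subgroup.zpowers y, h ≠ 1 → ∀ a : Γ, h * a = a * h → x * a = a * x := by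
    intro h hh h1 a hha
    obtain ⟨k, hk⟩ := (mem_powers_iff_mem_zpowers).mpr hh
    have hk' : y ^ k = h := hk
    have hnd : ¬ p ^ (s + 1) ∣ k := by
      intro hd
      apply h1
      rw [← hk', ← orderOf_dvd_iff_pow_eq_one, hy]
      exact hd
    have hk0 : k ≠ 0 := by
      rintro rfl
      exact hnd (dvd_zero _)
    obtain ⟨i, m, hm, hkm⟩ := Nat.exists_eq_pow_mul_and_not_dvd hk0 p hp.ne_one
    have his : i ≤ s := by
      by_contra hcon
      apply hnd
      rw [hkm]
      exact Dvd.dvd.mul_right (pow_dvd_pow p (by omega)) m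
    have e1 : h ^ p ^ (s - i) = x ^ m := by
      rw [← hk', hkm, hx, ← pow_mul, ← pow_mul]
      congr 1
      calc p ^ i * m * p ^ (s - i) = (p ^ i * p ^ (s - i)) * m := by ring
        _ = p ^ s * m := by rw [← pow_add]; congr 2; omega
    have hc1 : Commute (x ^ m) a := by
      rw [← e1]
      exact (show Commute h a from hha).pow_left _
    have hcop : Nat.Coprime m p := ((Nat.Prime.coprime_iff_not_dvd hp).mpr hm).symm
    obtain ⟨m', -, hm'⟩ := Nat.exists_mul_mod_eq_one_of_coprime hcop hp.one_lt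
    have e2 : (x ^ m) ^ m' = x := by
      rw [← pow_mul, pow_eq_pow_mod _ hxp, hm', pow_one]
    have hc2 : Commute x a := by
      rw [← e2]
      exact hc1.pow_left _
    exact hc2.eq
  set C : Subgroup Γ := D ⊓ Subgroup.centralizer ({x} : Set Γ) with hC
  have hmemC : ∀ c, c ∈ C ↔ c ∈ D ∧ c * x = x * c := by
    intro c
    rw [hC, Subgroup.mem_inf, Subgroup.mem_centralizer_singleton_iff]
  let X : Set Γ := (D : Set Γ) \ (C : Set Γ)
  have hstab : ∀ h ∈ Subgroup.zpowers y, ∀ a ∈ X, h * a * h⁻¹ ∈ X := by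
    intro h hh a ha
    refine ⟨conj_mem_of_mem_zpowers hh hinv a ha.1, ?_⟩
    intro hcon
    apply ha.2
    have h2 := ((hmemC _).mp hcon).2
    have hhx := hcomm h hh
    refine (hmemC a).mpr ⟨ha.1, ?_⟩
    have hhx' : h⁻¹ * x = x * h⁻¹ := by
      calc h⁻¹ * x = h⁻¹ * (x * h) * h⁻¹ := by group
        _ = h⁻¹ * (h * x) * h⁻¹ := by rw [hhx]
        _ = x * h⁻¹ := by group
    calc a * x = h⁻¹ * ((h * a * h⁻¹) * x) * h * (h⁻¹ * x⁻¹ * h * x) := by group
      _ = h⁻¹ * (x * (h * a * h⁻¹)) * h * (h⁻¹ * x⁻¹ * (h * x)) := by rw [h2]; group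
      _ = h⁻¹ * (x * (h * a * h⁻¹)) * h * (h⁻¹ * x⁻¹ * (x * h)) := by rw [hhx]
      _ = (h⁻¹ * x) * h * a := by group
      _ = (x * h⁻¹) * h * a := by rw [hhx']
      _ = x * a := by group
  let act : MulAction (Subgroup.zpowers y) X :=
    { smul := fun h a => ⟨(h : Γ) * a * (h : Γ)⁻¹, hstab h h.2 a a.2⟩
      one_smul := by
        intro a
        apply Subtype.ext
        show ((1 : Subgroup.zpowers y) : Γ) * a * ((1 : Subgroup.zpowers y) : Γ)⁻¹ = a
        simp
      mul_smul := by
        intro g h a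
        apply Subtype.ext
        show ((g * h : Subgroup.zpowers y) : Γ) * a * ((g * h : Subgroup.zpowers y) : Γ)⁻¹ =
          (g : Γ) * ((h : Γ) * a * (h : Γ)⁻¹) * (g : Γ)⁻¹
        rw [Subgroup.coe_mul]
        group }
  have hfree : ∀ (h : Subgroup.zpowers y) (a : X), h • a = a → h = 1 := by
    intro h a hha
    by_contra h1
    have h2 : (h : Γ) * a * (h : Γ)⁻¹ = a := congrArg Subtype.val hha
    have h3 : (h : Γ) * a = a * h := by
      calc (h : Γ) * a = ((h : Γ) * a * (h : Γ)⁻¹) * h := by group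
        _ = a * h := by rw [h2]
    have h4 := hkey h h.2 (fun hh => h1 (Subtype.ext hh)) a h3
    exact a.2.2 ((hmemC _).mpr ⟨a.2.1, h4.symm⟩)
  have hdvd := card_dvd_of_free hfree
  rw [Nat.card_zpowers, hy] at hdvd
  have hX : Nat.card X = Nat.card D - Nat.card C := by
    have h1 : Nat.card X = X.ncard := Nat.card_coe_set_eq X
    rw [h1]
    exact Set.ncard_sdiff (inf_le_left : C ≤ D) (Set.toFinite _)
  rw [← hX]
  exact hdvd

end grp

end Cfsg.Agent.Lib.Helper71.Hup
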