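import Mathlib
import Cfsg.Agent.Lib.Helper76.Hup.Defs
import Cfsg.Agent.Lib.Helper71.HupMA
import Cfsg.Agent.Lib.Helper67.ExtraSub

/-!
HUP ladder (helper76), rung MB: `minD_comm_pow_cent`, `minD_center_cent`.
-/

set_option autoImplicit false
set_option linter.unusedSectionVars false

namespace Cfsg.Agent.Lib.Helper71.Hup

open Cfsg.Agent.Lib.Helper76.Hup
open scoped commutatorElement

section grp
variable {Γ : Type*} [Group Γ] [Finite Γ]

/-- RUNG M3 : commutators and `r`-th powers of `D` are centralized by `x` -/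
theorem minD_comm_pow_cent {r : ℕ} [Fact r.Prime] {y x : Γ}
    {D : Subgroup Γ} (hD : IsPGroup r D) (h : MinD y x D) :
    (∀ a ∈ D, ∀ b ∈ D, x * (a * b * a⁻¹ * b⁻¹) = (a * b * a⁻¹ * b⁻¹) * x) ∧
    (∀ a ∈ D, x * a ^ r = a ^ r * x) := by
  have hr : r.Prime := Fact.out
  obtain ⟨k, hk⟩ := IsPGroup.iff_card.mp hD
  have hk0 : k ≠ 0 := by
    rintro rfl
    rw [pow_zero] at hk
    obtain ⟨a, ha, hna⟩ := h.nc
    apply hna
    have hbot : D = ⊥ := Subgroup.card_eq_one.mp hk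
    rw [hbot, Subgroup.mem_bot] at ha
    rw [ha, mul_one, one_mul]
  obtain ⟨Q, hQ⟩ := Sylow.exists_subgroup_card_pow_prime (G := D) r (n := k - 1)
    (by rw [hk]; exact pow_dvd_pow r (Nat.sub_le k 1))
  have hQi : Q.index = r := by
    have h1 := Subgroup.card_mul_index Q
    rw [hQ, hk] at h1
    have h2 : r ^ k = r ^ (k - 1) * r := by
      rw [← pow_succ]; congr 1; omega
    rw [h2] at h1
    exact Nat.eq_of_mul_eq_mul_left (pow_pos hr.pos _) h1
  have hQn : Q.Normal := Cfsg.Agent.Lib.Helper67.normal_of_index_eq_p hD hQi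
  set U : Subgroup Γ := Subgroup.closure ({g | ∃ a ∈ D, ∃ b ∈ D, g = a * b * a⁻¹ * b⁻¹} ∪
    {g | ∃ a ∈ D, g = a ^ r}) with hU
  have hUQ : U ≤ Q.map D.subtype := by
    rw [hU, Subgroup.closure_le]
    rintro g (⟨a, ha, b, hb, rfl⟩ | ⟨a, ha, rfl⟩)
    · refine ⟨⁅(⟨a, ha⟩ : D), ⟨b, hb⟩⁆, ?_, rfl⟩
      apply Cfsg.Agent.Lib.Helper67.commutator_le_of_index_prime hQi
      exact Subgroup.commutator_mem_commutator (Subgroup.mem_top _) (Subgroup.mem_top _)
    · exact ⟨(⟨a, ha⟩ : D) ^ r, Cfsg.Agent.Lib.Helper67.pow_mem_of_index_eq hQi _, rfl⟩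
  have hQlt : Q.map D.subtype < D := by
    refine lt_of_le_of_ne (Subgroup.map_subtype_le Q) ?_
    intro heq
    have h1 : Nat.card (Q.map D.subtype) = Nat.card Q :=
      Subgroup.card_map_of_injective D.subtype_injective
    rw [heq, hk, hQ] at h1
    have h2 : r ^ (k - 1) < r ^ k := Nat.pow_lt_pow_right hr.one_lt (by omega)
    omega
  have hUinv : ∀ a ∈ U, y * a * y⁻¹ ∈ U := by
    have hle : U ≤ U.comap (MulAut.conj y).toMonoidHom := by
      rw [hU, Subgroup.closure_le]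
      rintro g (⟨a, ha, b, hb, rfl⟩ | ⟨a, ha, rfl⟩)
      · show y * (a * b * a⁻¹ * b⁻¹) * y⁻¹ ∈ Subgroup.closure _
        apply Subgroup.subset_closure
        left
        exact ⟨y * a * y⁻¹, h.inv a ha, y * b * y⁻¹, h.inv b hb, by group⟩
      · show y * a ^ r * y⁻¹ ∈ Subgroup.closure _
        apply Subgroup.subset_closure
        right
        exact ⟨y * a * y⁻¹, h.inv a ha, (conj_pow).symm⟩
    intro a ha
    exact hle ha
  have hcent := h.min U (lt_of_le_of_lt hUQ hQlt) hUinv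
  refine ⟨fun a ha b hb => hcent _ (Subgroup.subset_closure (Or.inl ⟨a, ha, b, hb, rfl⟩)),
    fun a ha => hcent _ (Subgroup.subset_closure (Or.inr ⟨a, ha, rfl⟩))⟩

/-- RUNG M4 : `Z(D) ≤ C_D(x)` if `D` is not abelian -/
theorem minD_center_cent {y x : Γ} {D : Subgroup Γ} (h : MinD y x D)
    (hna : ∃ a ∈ D, ∃ b ∈ D, a * b ≠ b * a) :
    ∀ c ∈ D, (∀ d ∈ D, c * d = d * c) → x * c = c * x := by
  set Z : Subgroup Γ := D ⊓ Subgroup.centralizer (D : Set Γ) with hZ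
  have hmemZ : ∀ c, c ∈ Z ↔ c ∈ D ∧ ∀ d ∈ D, c * d = d * c := by
    intro c
    rw [hZ, Subgroup.mem_inf, Subgroup.mem_centralizer_iff]
    constructor
    · rintro ⟨h1, h2⟩
      exact ⟨h1, fun d hd => (h2 d hd).symm⟩
    · rintro ⟨h1, h2⟩
      exact ⟨h1, fun d hd => (h2 d hd).symm⟩
  have hZlt : Z < D := by
    refine lt_of_le_of_ne inf_le_left ?_
    intro heq
    obtain ⟨a, ha, b, hb, hab⟩ := hna
    apply hab
    have : a ∈ Z := by rw [heq]; exact ha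
    exact ((hmemZ a).mp this).2 b hb
  have hyinv := conj_mem_of_mem_zpowers (x := y⁻¹)
    (Subgroup.inv_mem _ (Subgroup.mem_zpowers y)) h.inv
  have hZinv : ∀ a ∈ Z, y * a * y⁻¹ ∈ Z := by
    intro c hc
    obtain ⟨hcD, hcc⟩ := (hmemZ c).mp hc
    refine (hmemZ _).mpr ⟨h.inv c hcD, ?_⟩
    intro d hd
    have h1 := hcc _ (hyinv d hd)
    calc y * c * y⁻¹ * d = y * (c * (y⁻¹ * d * y⁻¹⁻¹)) * y⁻¹ := by group
      _ = y * ((y⁻¹ * d * y⁻¹⁻¹) * c) * y⁻¹ := by rw [h1]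
      _ = d * (y * c * y⁻¹) := by group
  intro c hc hcc
  exact h.min Z hZlt hZinv c ((hmemZ c).mpr ⟨hc, hcc⟩)

end grp

end Cfsg.Agent.Lib.Helper71.Hup
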