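import Mathlib
import Cfsg.Agent.Lib.Helper75.SylowCoprime

set_option autoImplicit false

namespace Cfsg.Agent.Lib.Helper71

/-- A finite group with a normal `p`-subgroup with cyclic quotient has a normal Sylow `p`-subgroup
with cyclic quotient. -/
theorem pbc_of_normal {H : Type*} [Group H] [Finite H] {p : ℕ} [Fact p.Prime] (N : Subgroup H)
    [N.Normal] (hN : IsPGroup p N) [IsCyclic (H ⧸ N)] :
    (∀ S : Sylow p H, (S : Subgroup H).Normal) ∧
    (∀ (S : Sylow p H) [(S : Subgroup H).Normal], IsCyclic (H ⧸ (S : Subgroup H))) := by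
  have hNS : ∀ S : Sylow p H, N ≤ S := fun S => Cfsg.Agent.Lib.Helper75.normal_le_sylow N hN S
  constructor
  · intro S
    constructor
    intro s hs h
    have h1 : h * s * h⁻¹ * s⁻¹ ∈ N := by
      rw [← QuotientGroup.eq_one_iff]
      obtain ⟨g, hg⟩ := IsCyclic.exists_generator (α := H ⧸ N)
      have hc : ∀ a b : H ⧸ N, a * b = b * a := by
        intro a b
        obtain ⟨i, rfl⟩ := Subgroup.mem_zpowers_iff.mp (hg a)
        obtain ⟨j, rfl⟩ := Subgroup.mem_zpowers_iff.mp (hg b)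
        rw [← zpow_add, ← zpow_add, add_comm]
      have h2 : ((h * s * h⁻¹ * s⁻¹ : H) : H ⧸ N) = (h : H ⧸ N) * s * (h : H ⧸ N)⁻¹ * (s : H ⧸ N)⁻¹ := rfl
      rw [h2, hc (h : H ⧸ N) s]
      group
    have h3 := mul_mem (hNS S h1) hs
    simpa using h3
  · intro S _
    exact isCyclic_of_surjective (QuotientGroup.map N (S : Subgroup H) (MonoidHom.id H) (hNS S))
      (by
        intro y
        obtain ⟨h, rfl⟩ := QuotientGroup.mk'_surjective _ y
        exact ⟨QuotientGroup.mk' N h, rfl⟩)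

/-- Subgroup version. -/
theorem pbc_sub {G : Type*} [Group G] [Finite G] {p : ℕ} [Fact p.Prime] (H N₀ : Subgroup G)
    (hNH : N₀ ≤ H) (hN : IsPGroup p N₀) (hHN : H ≤ Subgroup.normalizer (N₀ : Set G)) (x : G)
    (hx : x ∈ H) (hgen : ∀ h ∈ H, ∃ n ∈ N₀, ∃ k : ℤ, h = x ^ k * n) :
    (∀ S : Sylow p ↥H, (S : Subgroup ↥H).Normal) ∧
    (∀ (S : Sylow p ↥H) [(S : Subgroup ↥H).Normal], IsCyclic (↥H ⧸ (S : Subgroup ↥H))) := by
  have hn : (N₀.subgroupOf H).Normal := (Subgroup.normal_subgroupOf_iff_le_normalizer hNH).mpr hHN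
  have hp : IsPGroup p (N₀.subgroupOf H) := hN.comap_of_injective H.subtype Subtype.coe_injective
  have hc : IsCyclic (↥H ⧸ N₀.subgroupOf H) := by
    refine ⟨⟨QuotientGroup.mk' _ ⟨x, hx⟩, fun y => ?_⟩⟩
    obtain ⟨h, rfl⟩ := QuotientGroup.mk'_surjective _ y
    obtain ⟨n, hn', k, hk⟩ := hgen h.1 h.2
    refine ⟨k, ?_⟩
    change (QuotientGroup.mk' (N₀.subgroupOf H) ⟨x, hx⟩) ^ k = QuotientGroup.mk' _ h
    rw [← map_zpow]
    apply QuotientGroup.eq.mpr
    rw [Subgroup.mem_subgroupOf]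
    have : (((⟨x, hx⟩ : H) ^ k)⁻¹ * h : H).1 = (x ^ k)⁻¹ * h.1 := by simp
    rw [this, hk, inv_mul_cancel_left]
    exact hn'
  exact pbc_of_normal (N₀.subgroupOf H) hp

end Cfsg.Agent.Lib.Helper71
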