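import Mathlib
import Cfsg.Agent.Lib.Helper71.Basic
import Cfsg.Agent.Lib.Helper71.Irr
import Cfsg.Agent.Lib.Helper74.MaxSolvable
import Cfsg.Agent.Lib.Helper1.Coprime
import Cfsg.Agent.S0143
import Cfsg.Agent.S0003

set_option autoImplicit false

namespace Cfsg.Agent.Lib.Helper71

/-- every `p`-regular element has a centralizer of `p`-power index -/
def PRegPow (p : ℕ) (G : Type*) [Group G] : Prop :=
  ∀ x : G, (orderOf x).Coprime p → ∃ k : ℕ, (Subgroup.centralizer ({x} : Set G)).index = p ^ k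

theorem relIndex_dvd_index_of_normal_right {G : Type*} [Group G] [Finite G] (K N : Subgroup G)
    [N.Normal] : K.relIndex N ∣ K.index :=
  Dvd.intro _ (Cfsg.Agent.Lib.Helper74.relIndex_mul_index_sup_of_normal K N)

theorem centralizer_subtype_eq {G : Type*} [Group G] (N : Subgroup G) (x : N) :
    Subgroup.centralizer ({x} : Set N) = (Subgroup.centralizer ({(x : G)} : Set G)).subgroupOf N := by
  ext y
  rw [Subgroup.mem_subgroupOf, Subgroup.mem_centralizer_singleton_iff,
    Subgroup.mem_centralizer_singleton_iff]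
  constructor
  · intro h; exact congrArg Subtype.val h
  · intro h; exact Subtype.ext h

theorem PRegPow.normal {p : ℕ} (hp : p.Prime) {G : Type*} [Group G] [Finite G] (h : PRegPow p G)
    (N : Subgroup G) [N.Normal] : PRegPow p N := by
  intro x hx
  obtain ⟨k, hk⟩ := h (x : G) (by rwa [Subgroup.orderOf_coe])
  rw [centralizer_subtype_eq]
  have h1 : (Subgroup.centralizer ({(x : G)} : Set G)).relIndex N ∣ p ^ k := by
    rw [← hk]; exact relIndex_dvd_index_of_normal_right _ _
  obtain ⟨j, -, hj⟩ := (Nat.dvd_prime_pow hp).mp h1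
  exact ⟨j, hj⟩

theorem PRegPow.quot {p : ℕ} (hp : p.Prime) {G : Type*} [Group G] [Finite G] (h : PRegPow p G)
    (N : Subgroup G) [N.Normal] : PRegPow p (G ⧸ N) := by
  intro y hy
  obtain ⟨g, rfl⟩ := QuotientGroup.mk_surjective y
  obtain ⟨e, m, hm, hgo⟩ := Nat.exists_eq_pow_mul_and_not_dvd (orderOf_pos g).ne' p hp.ne_one
  have hxo : orderOf (g ^ p ^ e) = m := by
    rw [orderOf_pow_of_dvd (pow_ne_zero _ hp.ne_zero) (by rw [hgo]; exact Dvd.intro _ rfl), hgo,
      Nat.mul_div_cancel_left _ (pow_pos hp.pos _)]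
  have hcop : Nat.Coprime m p := Nat.coprime_comm.mp ((Nat.Prime.coprime_iff_not_dvd hp).mpr hm)
  obtain ⟨k, hk⟩ := h (g ^ p ^ e) (by rw [hxo]; exact hcop)
  have hle : (Subgroup.centralizer ({g ^ p ^ e} : Set G)).map (QuotientGroup.mk' N) ≤
      Subgroup.centralizer ({(g : G ⧸ N)} : Set (G ⧸ N)) := by
    rintro _ ⟨c, hc, rfl⟩
    rw [SetLike.mem_coe, Subgroup.mem_centralizer_singleton_iff] at hc
    rw [Subgroup.mem_centralizer_singleton_iff]
    have h1 : (g : G ⧸ N) ∈ Subgroup.centralizer ({(QuotientGroup.mk' N c)} : Set (G ⧸ N)) := by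
      apply mem_of_pow_mem_of_coprime _ _ (a := p ^ e) (b := orderOf (g : G ⧸ N))
      · exact Nat.Coprime.pow_left _ (Nat.coprime_comm.mp hy)
      · rw [Subgroup.mem_centralizer_singleton_iff]
        have := congrArg (QuotientGroup.mk' N) hc
        simp only [map_mul, map_pow] at this
        exact this.symm
      · rw [pow_orderOf_eq_one]; exact Subgroup.one_mem _
    rw [Subgroup.mem_centralizer_singleton_iff] at h1
    exact h1.symm
  have h1 : (Subgroup.centralizer ({(g : G ⧸ N)} : Set (G ⧸ N))).index ∣ p ^ k := by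
    rw [← hk]
    exact (Subgroup.index_dvd_of_le hle).trans
      (Subgroup.index_map_dvd _ (QuotientGroup.mk'_surjective N))
  obtain ⟨j, -, hj⟩ := (Nat.dvd_prime_pow hp).mp h1
  exact ⟨j, hj⟩

theorem PRegPow.isSolvable_aux {p : ℕ} (hp : p.Prime) : ∀ (n : ℕ) (G : Type*) [Group G] [Finite G],
    Nat.card G = n → PRegPow p G → Group.IsSolvable G := by
  intro n
  induction n using Nat.strong_induction_on with
  | _ n ih =>
    intro G _ _ hn h
    have : Fact p.Prime := ⟨hp⟩
    by_cases hex : ∃ N : Subgroup G, N.Normal ∧ N ≠ ⊥ ∧ N ≠ ⊤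
    · obtain ⟨N, hN, hb, ht⟩ := hex
      have h1 : Nat.card N < n := by
        rw [← hn]
        by_contra hc
        exact ht (Subgroup.eq_top_of_le_card N (not_lt.mp hc))
      have h2 : Nat.card (G ⧸ N) < n := by
        rw [← hn, ← N.card_mul_index, ← Subgroup.index]
        have : 1 < Nat.card N := (Subgroup.one_lt_card_iff_ne_bot N).mpr hb
        have h3 : 0 < N.index := Nat.pos_of_ne_zero (Subgroup.index_ne_zero_of_finite)
        nlinarith
      have s1 := ih _ h1 N rfl (h.normal hp N)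
      have s2 := ih _ h2 (G ⧸ N) rfl (h.quot hp N)
      exact (Group.isSolvable_iff_subgroup_quotient N).mpr ⟨s1, s2⟩
    · push Not at hex
      by_cases hsub : Subsingleton G
      · infer_instance
      · have hnt : Nontrivial G := not_subsingleton_iff_nontrivial.mp hsub
        have hsimple : IsSimpleGroup G := ⟨fun N hN => by
          by_cases hb : N = ⊥
          · exact Or.inl hb
          · exact Or.inr (hex N hN hb)⟩
        by_cases hreg : ∃ x : G, x ≠ 1 ∧ (orderOf x).Coprime p
        · obtain ⟨x, hx1, hx⟩ := hreg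
          obtain ⟨k, hk⟩ := h x hx
          have hprime := Cfsg.Agent.S0143.result p k hp x hx1 hk
          have : Fact (Nat.card G).Prime := ⟨hprime⟩
          have := isCyclic_of_prime_card (α := G) rfl
          exact Group.isSolvable_of_comm (fun a b => IsCyclic.commGroup.mul_comm a b)
        · push Not at hreg
          have hpg : IsPGroup p G := by
            intro g
            obtain ⟨e, m, hm, hgo⟩ :=
              Nat.exists_eq_pow_mul_and_not_dvd (orderOf_pos g).ne' p hp.ne_one
            have hxo : orderOf (g ^ p ^ e) = m := by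
              rw [orderOf_pow_of_dvd (pow_ne_zero _ hp.ne_zero) (by rw [hgo]; exact Dvd.intro _ rfl),
                hgo, Nat.mul_div_cancel_left _ (pow_pos hp.pos _)]
            refine ⟨e, ?_⟩
            by_contra hne
            apply hreg _ hne
            rw [hxo]
            exact Nat.coprime_comm.mp ((Nat.Prime.coprime_iff_not_dvd hp).mpr hm)
          have := hpg.isNilpotent
          infer_instance

theorem PRegPow.isSolvable {p : ℕ} (hp : p.Prime) {G : Type*} [Group G] [Finite G]
    (h : PRegPow p G) : Group.IsSolvable G :=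
  PRegPow.isSolvable_aux hp _ G rfl h

/-- `p`-regular elements centralize normal `p'`-subgroups -/
theorem PRegPow.le_centralizer {p : ℕ} {G : Type*} [Group G] [Finite G]
    (h : PRegPow p G) (V : Subgroup G) [V.Normal] (hV : (Nat.card V).Coprime p) (x : G)
    (hx : (orderOf x).Coprime p) : V ≤ Subgroup.centralizer ({x} : Set G) := by
  obtain ⟨k, hk⟩ := h x hx
  rw [← Subgroup.relIndex_eq_one]
  have h1 : (Subgroup.centralizer ({x} : Set G)).relIndex V ∣ p ^ k := by
    rw [← hk]; exact relIndex_dvd_index_of_normal_right _ _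
  have h2 : (Subgroup.centralizer ({x} : Set G)).relIndex V ∣ Nat.card V :=
    Subgroup.relIndex_dvd_card _ _
  exact Nat.eq_one_of_dvd_coprimes (Nat.Coprime.pow_right k hV) h2 h1

theorem PRegPow.commute_of_commutator_mem {p : ℕ} {G : Type*} [Group G] [Finite G]
    (h : PRegPow p G) (V : Subgroup G) [V.Normal] (hV : (Nat.card V).Coprime p) (x u : G)
    (hx : (orderOf x).Coprime p) (hu : (orderOf u).Coprime p) (hz : u * x * u⁻¹ * x⁻¹ ∈ V) :
    u * x = x * u := by
  set C := Subgroup.centralizer (V : Set G) with hC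
  set X := Subgroup.centralizer ({x} : Set G) with hX
  have memC : ∀ w : G, (orderOf w).Coprime p → w ∈ C := by
    intro w hw
    rw [hC, Subgroup.mem_centralizer_iff]
    intro v hv
    exact Subgroup.mem_centralizer_singleton_iff.mp (h.le_centralizer V hV w hw hv)
  have hxC := memC x hx
  have huC := memC u hu
  set z := u * x * u⁻¹ * x⁻¹ with hzdef
  have hzc : ∀ y ∈ C, z * y = y * z := fun y hy => (Subgroup.mem_centralizer_iff.mp hy) z hz
  have e1 : u * x * u⁻¹ = z * x := by rw [hzdef]; group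
  have e2 : u⁻¹ * x * u = z⁻¹ * x := by
    have h1 : x = u⁻¹ * (z * x) * u := by rw [← e1]; group
    have h2 : u⁻¹ * (z * x) * u = z * (u⁻¹ * x * u) := by
      have := hzc u⁻¹ (C.inv_mem huC)
      calc u⁻¹ * (z * x) * u = (u⁻¹ * z) * x * u := by group
        _ = (z * u⁻¹) * x * u := by rw [this]
        _ = z * (u⁻¹ * x * u) := by group
    rw [h2] at h1
    rw [eq_inv_mul_iff_mul_eq]; exact h1.symm
  have hnorm : u ∈ Subgroup.normalizer ((X ⊓ C : Subgroup G) : Set G) := by
    rw [Subgroup.mem_normalizer_iff]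
    intro y
    constructor
    · intro hy
      obtain ⟨hy1, hy2⟩ := Subgroup.mem_inf.mp hy
      refine Subgroup.mem_inf.mpr ⟨?_, C.mul_mem (C.mul_mem huC hy2) (C.inv_mem huC)⟩
      rw [hX, Subgroup.mem_centralizer_singleton_iff] at hy1 ⊢
      have hyz : y * z⁻¹ = z⁻¹ * y := by
        have := hzc y hy2
        rw [eq_inv_mul_iff_mul_eq, ← mul_assoc, this, mul_assoc, mul_inv_cancel, mul_one]
      calc u * y * u⁻¹ * x = u * y * (u⁻¹ * x * u) * u⁻¹ := by group
        _ = u * (y * z⁻¹) * x * u⁻¹ := by rw [e2]; group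
        _ = u * z⁻¹ * (y * x) * u⁻¹ := by rw [hyz]; group
        _ = u * (z⁻¹ * x) * y * u⁻¹ := by rw [hy1]; group
        _ = x * (u * y * u⁻¹) := by rw [← e2]; group
    · intro hy
      obtain ⟨hy1, hy2⟩ := Subgroup.mem_inf.mp hy
      have hyC : y ∈ C := by
        have : y = u⁻¹ * (u * y * u⁻¹) * u := by group
        rw [this]
        exact C.mul_mem (C.mul_mem (C.inv_mem huC) hy2) huC
      refine Subgroup.mem_inf.mpr ⟨?_, hyC⟩
      rw [hX, Subgroup.mem_centralizer_singleton_iff] at hy1 ⊢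
      have hy'z := hzc _ hy2
      calc y * x = u⁻¹ * (u * y * u⁻¹) * (u * x * u⁻¹) * u := by group
        _ = u⁻¹ * (u * y * u⁻¹) * (z * x) * u := by rw [e1]
        _ = u⁻¹ * ((u * y * u⁻¹) * z) * x * u := by group
        _ = u⁻¹ * (z * (u * y * u⁻¹)) * x * u := by rw [hy'z]
        _ = u⁻¹ * z * ((u * y * u⁻¹) * x) * u := by group
        _ = u⁻¹ * z * (x * (u * y * u⁻¹)) * u := by rw [hy1]
        _ = u⁻¹ * (z * x) * (u * y * u⁻¹) * u := by group
        _ = u⁻¹ * (u * x * u⁻¹) * (u * y * u⁻¹) * u := by rw [e1]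
        _ = x * y := by group
  have hle : Subgroup.zpowers u ≤ Subgroup.normalizer ((X ⊓ C : Subgroup G) : Set G) := by
    rwa [Subgroup.zpowers_le]
  have h1 := Cfsg.Agent.Lib.Helper1.relIndex_sup_right_of_le_normalizer hle
  have h2 := Subgroup.relIndex_mul_relIndex (X ⊓ C) (Subgroup.zpowers u ⊔ (X ⊓ C)) C le_sup_right
    (sup_le (by rwa [Subgroup.zpowers_le]) inf_le_right)
  rw [h1, Subgroup.inf_relIndex_right] at h2
  obtain ⟨k, hk⟩ := h x hx
  have h4 : (X ⊓ C).relIndex (Subgroup.zpowers u) ∣ p ^ k := by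
    rw [← hk]
    exact (Dvd.intro _ h2).trans (relIndex_dvd_index_of_normal_right _ _)
  have h5 : (X ⊓ C).relIndex (Subgroup.zpowers u) ∣ orderOf u := by
    rw [← Nat.card_zpowers]; exact Subgroup.relIndex_dvd_card _ _
  have h6 : (X ⊓ C).relIndex (Subgroup.zpowers u) = 1 :=
    Nat.eq_one_of_dvd_coprimes (Nat.Coprime.pow_right k hu) h5 h4
  rw [Subgroup.relIndex_eq_one, Subgroup.zpowers_le] at h6
  exact Subgroup.mem_centralizer_singleton_iff.mp h6.1

theorem PRegPow.commute_aux {p : ℕ} (hp : p.Prime) : ∀ (n : ℕ) (G : Type*) [Group G] [Finite G],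
    Nat.card G = n → PRegPow p G → ∀ H : Subgroup G, (Nat.card H).Coprime p →
    ∀ x ∈ H, ∀ u ∈ H, u * x = x * u := by
  intro n
  induction n using Nat.strong_induction_on with
  | _ n ih =>
    intro G _ _ hn h H hH x hx u hu
    have hsol := h.isSolvable hp
    by_cases hsub : Subsingleton G
    · exact Subsingleton.elim _ _
    have hnt : Nontrivial G := not_subsingleton_iff_nontrivial.mp hsub
    obtain ⟨q, B, hq, hBn, hBne, hBp, -, -⟩ :=
      Cfsg.Agent.Lib.Helper74.exists_normal_pGroup_of_isSolvable G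
    have h2 : Nat.card (G ⧸ B) < n := by
      rw [← hn, ← B.card_mul_index, ← Subgroup.index]
      have : 1 < Nat.card B := (Subgroup.one_lt_card_iff_ne_bot B).mpr hBne
      have h3 : 0 < B.index := Nat.pos_of_ne_zero (Subgroup.index_ne_zero_of_finite)
      nlinarith
    have hmap : (Nat.card (H.map (QuotientGroup.mk' B))).Coprime p :=
      Nat.Coprime.coprime_dvd_left (Subgroup.card_map_dvd _ _) hH
    have hq' := ih _ h2 (G ⧸ B) rfl (h.quot hp B) _ hmap _ ⟨x, hx, rfl⟩ _ ⟨u, hu, rfl⟩
    have hz : u * x * u⁻¹ * x⁻¹ ∈ B := by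
      rw [← QuotientGroup.eq_one_iff]
      have e : ((u * x * u⁻¹ * x⁻¹ : G) : G ⧸ B) = QuotientGroup.mk' B u * QuotientGroup.mk' B x *
        (QuotientGroup.mk' B u)⁻¹ * (QuotientGroup.mk' B x)⁻¹ := rfl
      rw [e, hq']; group
    have hord : ∀ w ∈ H, (orderOf w).Coprime p := by
      intro w hw
      apply Nat.Coprime.coprime_dvd_left _ hH
      have := orderOf_dvd_natCard (⟨w, hw⟩ : H)
      rwa [Subgroup.orderOf_mk] at this
    by_cases hqp : q = p
    · subst hqp
      set z := u * x * u⁻¹ * x⁻¹ with hzdef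
      have hzH : z ∈ H := H.mul_mem (H.mul_mem (H.mul_mem hu hx) (H.inv_mem hu)) (H.inv_mem hx)
      obtain ⟨e, he⟩ := hBp ⟨z, hz⟩
      have he' : z ^ q ^ e = 1 := congrArg Subtype.val he
      have h3 := pow_gcd_eq_one.mpr ⟨he', pow_orderOf_eq_one z⟩
      rw [(Nat.Coprime.pow_left e (Nat.coprime_comm.mp (hord z hzH))).gcd_eq_one, pow_one] at h3
      have : u * x = z * (x * u) := by rw [hzdef]; group
      rw [this, h3, one_mul]
    · have : Fact q.Prime := ⟨hq⟩
      obtain ⟨e, he⟩ := IsPGroup.iff_card.mp hBp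
      have hBcop : (Nat.card B).Coprime p := by
        rw [he]; exact Nat.Coprime.pow_left _ ((Nat.coprime_primes hq hp).mpr hqp)
      exact h.commute_of_commutator_mem B hBcop x u (hord x hx) (hord u hu) hz

/-- existence of an abelian `p`-complement -/
theorem PRegPow.exists_abelian_complement {p : ℕ} (hp : p.Prime) {G : Type*} [Group G] [Finite G]
    (h : PRegPow p G) :
    ∃ H : Subgroup G, IsMulCommutative H ∧ ¬ p ∣ Nat.card H ∧ ∃ k : ℕ, H.index = p ^ k := by
  have hsol := h.isSolvable hp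
  have hne : Nat.card G ≠ 0 := Nat.card_pos.ne'
  obtain ⟨H, hH⟩ := Cfsg.Agent.S0003.result (G := G) (ordCompl[p] (Nat.card G)) (ordProj[p] (Nat.card G))
    (by rw [mul_comm]; exact (Nat.ordProj_mul_ordCompl_eq_self _ _).symm)
    (Nat.Coprime.pow_right _ (Nat.coprime_comm.mp (Nat.coprime_ordCompl hp hne)))
  have hpH : ¬ p ∣ Nat.card H := by rw [hH]; exact Nat.not_dvd_ordCompl hp hne
  refine ⟨H, ?_, hpH, (Nat.card G).factorization p, ?_⟩
  · rw [isMulCommutative_iff]
    rintro ⟨a, ha⟩ ⟨b, hb⟩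
    apply Subtype.ext
    exact PRegPow.commute_aux hp _ G rfl h H
      (Nat.coprime_comm.mp ((Nat.Prime.coprime_iff_not_dvd hp).mpr hpH)) b hb a ha
  · have h1 := H.card_mul_index
    rw [hH] at h1
    have h2 := Nat.ordProj_mul_ordCompl_eq_self (Nat.card G) p
    rw [mul_comm] at h2
    have h3 : 0 < ordCompl[p] (Nat.card G) := Nat.ordCompl_pos p hne
    exact Nat.eq_of_mul_eq_mul_left h3 (h1.trans h2.symm)

end Cfsg.Agent.Lib.Helper71
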