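import Mathlib
import Cfsg.Agent.Lib.Helper1.Coprime2
import Cfsg.Agent.S0055
import Cfsg.Agent.S0071

set_option autoImplicit false

namespace Cfsg.Agent.Lib.Helper71

open scoped commutatorElement

/-- Every non-abelian subgroup is self-normalizing. -/
def SN (G : Type*) [Group G] : Prop :=
  ∀ H : Subgroup G, ¬ IsMulCommutative H → Subgroup.normalizer (H : Set G) = H

theorem SN.comm_of_normal {G : Type*} [Group G] (h : SN G) (N : Subgroup G) [N.Normal]
    (hN : N ≠ ⊤) : IsMulCommutative N := by
  by_contra hc
  have := h N hc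
  rw [Subgroup.normalizer_eq_top] at this
  exact hN this.symm

theorem sup_le_centralizer_singleton {G : Type*} [Group G] (A W : Subgroup G) (c : G)
    (hA : ∀ a ∈ A, a * c = c * a) (hW : ∀ w ∈ W, w * c = c * w) :
    A ⊔ W ≤ Subgroup.centralizer ({c} : Set G) := by
  refine sup_le ?_ ?_
  · intro a ha
    rw [Subgroup.mem_centralizer_singleton_iff]
    exact hA a ha
  · intro a ha
    rw [Subgroup.mem_centralizer_singleton_iff]
    exact hW a ha

/-- Key coprime-action lemma for groups with all non-abelian subgroups self-normalizing. -/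
theorem SN.key {G : Type*} [Group G] [Finite G] (h : SN G) (V : Subgroup G) [IsMulCommutative V]
    (g : G) (hg : g ∈ Subgroup.normalizer (V : Set G))
    (hcop : Nat.Coprime (orderOf g) (Nat.card V)) (hgV : g ∉ Subgroup.centralizer (V : Set G))
    (c : G) (hcg : c * g = g * c) (hcV : c ∈ Subgroup.centralizer (V : Set G))
    (hcn : c ^ Nat.card V = 1) : c = 1 := by
  set A := Subgroup.zpowers g with hA
  have hAV : A ≤ Subgroup.normalizer (V : Set G) := by
    rw [hA, Subgroup.zpowers_le]; exact hg
  have hcardA : Nat.card A = orderOf g := Nat.card_zpowers g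
  obtain ⟨h1, h2⟩ := Cfsg.Agent.S0055.result A V hAV (by rw [hcardA]; exact hcop)
  set W := ⁅V, A⁆ with hW
  have hWV : W ≤ V := Cfsg.Agent.Lib.Helper1.commutator_le_left_of_le_normalizer hAV
  have hAW : A ≤ Subgroup.normalizer (W : Set G) :=
    le_trans le_sup_right (Cfsg.Agent.Lib.Helper1.sup_le_normalizer_commutator V A)
  have hnc : ¬ IsMulCommutative (A ⊔ W : Subgroup G) := by
    intro hc
    apply hgV
    have hWC : W ≤ Subgroup.centralizer (A : Set G) := by
      intro w hw
      rw [Subgroup.mem_centralizer_iff]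
      intro a ha
      have := hc.is_comm.comm (⟨a, Subgroup.mem_sup_left ha⟩ : (A ⊔ W : Subgroup G))
        ⟨w, Subgroup.mem_sup_right hw⟩
      exact congrArg Subtype.val this
    have hWbot : W = ⊥ := by
      rw [eq_bot_iff, ← h1]
      exact le_inf (le_inf hWV hWC) le_rfl
    rw [hWbot, sup_bot_eq] at h2
    have hVC : V ≤ Subgroup.centralizer (A : Set G) := by
      rw [← h2]; exact inf_le_right
    rw [Subgroup.mem_centralizer_iff]
    intro v hv
    exact (Subgroup.mem_centralizer_iff.mp (hVC hv) g (Subgroup.mem_zpowers g)).symm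
  have hAc : ∀ a ∈ A, a * c = c * a := by
    intro a ha
    have : A ≤ Subgroup.centralizer ({c} : Set G) := by
      rw [hA, Subgroup.zpowers_le, Subgroup.mem_centralizer_singleton_iff]
      exact hcg.symm
    exact Subgroup.mem_centralizer_singleton_iff.mp (this ha)
  have hWc : ∀ w ∈ W, w * c = c * w := fun w hw =>
    Subgroup.mem_centralizer_iff.mp hcV w (hWV hw)
  have hcT : c ∈ (A ⊔ W : Subgroup G) := by
    rw [← h _ hnc]
    apply Subgroup.centralizer_le_normalizer
    rw [Subgroup.mem_centralizer_iff]
    intro t ht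
    exact Subgroup.mem_centralizer_singleton_iff.mp (sup_le_centralizer_singleton A W c hAc hWc ht)
  rw [Cfsg.Agent.Lib.Helper1.mem_sup_of_le_normalizer hAW] at hcT
  obtain ⟨a, ha, w, hw, rfl⟩ := hcT
  have haw : Commute a w := by
    have h3 := hAc a ha
    have h4 : a * (a * w) = a * (w * a) := by rw [h3]; group
    exact mul_left_cancel h4
  have hwn : w ^ Nat.card V = 1 :=
    congrArg Subtype.val (pow_card_eq_one' (G := V) (x := ⟨w, hWV hw⟩))
  rw [haw.mul_pow, hwn, mul_one] at hcn
  have ha1 : a = 1 := by
    have h5 : orderOf a ∣ Nat.card V := orderOf_dvd_of_pow_eq_one hcn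
    have h6 : orderOf a ∣ orderOf g := by
      rw [← hcardA]
      exact Subgroup.orderOf_dvd_natCard A ha
    exact orderOf_eq_one_iff.mp (Nat.eq_one_of_dvd_coprimes hcop h6 h5)
  subst ha1
  rw [one_mul]
  have h7 : w ∈ (V ⊓ Subgroup.centralizer (A : Set G)) ⊓ W := by
    have h8 : w ∈ Subgroup.centralizer (A : Set G) := by
      rw [Subgroup.mem_centralizer_iff]
      intro a ha
      have := hAc a ha
      rwa [one_mul] at this
    exact Subgroup.mem_inf.mpr ⟨Subgroup.mem_inf.mpr ⟨hWV hw, h8⟩, hw⟩
  rw [h1] at h7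
  exact Subgroup.mem_bot.mp h7

/-- extension of an abelian normal subgroup by a solvable quotient -/
theorem isSolvable_of_comm_of_quot {G : Type*} [Group G] (N : Subgroup G) [N.Normal]
    [IsMulCommutative N] (hq : Group.IsSolvable (G ⧸ N)) : Group.IsSolvable G := by
  have hN : Group.IsSolvable N := by
    let _ : CommGroup N := { (inferInstance : Group N) with mul_comm := fun a b => mul_comm' a b }
    infer_instance
  exact Group.isSolvable_of_ker_le_range N.subtype (QuotientGroup.mk' N) (by
    rw [QuotientGroup.ker_mk', Subgroup.range_subtype])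

/-- A group with all non-abelian subgroups self-normalizing and nontrivial centre is solvable. -/
theorem SN.isSolvable_of_center {G : Type*} [Group G] [Finite G] (h : SN G)
    (hZ : Subgroup.center G ≠ ⊥) : Group.IsSolvable G := by
  have hnt : Nontrivial (Subgroup.center G) := (Subgroup.nontrivial_iff_ne_bot _).mpr hZ
  have hc1 : Nat.card (Subgroup.center G) ≠ 1 := by
    intro h1
    exact hZ (Subgroup.card_eq_one.mp h1)
  obtain ⟨p, hp, hpd⟩ := Nat.exists_prime_and_dvd hc1
  have : Fact p.Prime := ⟨hp⟩
  obtain ⟨z', hz'⟩ := exists_prime_orderOf_dvd_card' p hpd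
  set z : G := z'.1 with hz
  have hzo : orderOf z = p := by rw [hz, Subgroup.orderOf_coe, hz']
  have hzc : ∀ g : G, g * z = z * g := fun g => Subgroup.mem_center_iff.mp z'.2 g
  obtain ⟨P⟩ : Nonempty (Sylow p G) := inferInstance
  obtain ⟨N, hNn, hNc⟩ := (Cfsg.Agent.S0071.result P).mpr (by
    intro Q hQP g hg hgp
    have hQp : IsPGroup p Q := P.isPGroup'.to_le hQP
    by_cases hQc : IsMulCommutative Q
    · by_contra hgQ
      obtain ⟨j, hj⟩ := hQp.exists_card_eq
      have hj0 : j ≠ 0 := by
        rintro rfl
        rw [pow_zero] at hj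
        rw [Subgroup.card_eq_one.mp hj] at hgQ
        apply hgQ
        rw [Subgroup.mem_centralizer_iff]
        intro y hy
        rw [Subgroup.mem_bot.mp hy]
        simp
      have hz1 : z = 1 := by
        apply h.key Q g hg (by rw [hj]; exact Nat.Coprime.pow_right j hgp) hgQ z (hzc g).symm
        · rw [Subgroup.mem_centralizer_iff]
          intro y _
          exact hzc y
        · rw [hj]
          obtain ⟨i, rfl⟩ := Nat.exists_eq_succ_of_ne_zero hj0
          rw [pow_succ', pow_mul, ← hzo, pow_orderOf_eq_one, one_pow]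
      rw [hz1, orderOf_one] at hzo
      exact hp.ne_one hzo.symm
    · rw [h Q hQc] at hg
      obtain ⟨k, hk⟩ := (IsPGroup.iff_orderOf.mp hQp) ⟨g, hg⟩
      rw [Subgroup.orderOf_mk] at hk
      rw [hk] at hgp
      have hk0 : k = 0 := by
        by_contra hk0
        have := (Nat.coprime_pow_left_iff (Nat.pos_of_ne_zero hk0) p p).mp hgp
        rw [Nat.coprime_self] at this
        exact hp.ne_one this
      rw [hk0, pow_zero, orderOf_eq_one_iff] at hk
      rw [hk]
      exact one_mem _)
  have hNtop : N ≠ ⊤ := by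
    rintro rfl
    have h1 := hNc.card_mul_card
    rw [Subgroup.card_top] at h1
    have h2 : Nat.card (P : Subgroup G) = 1 := by
      have hpos : 0 < Nat.card G := Nat.card_pos
      nlinarith [h1]
    have h3 : p ∣ Nat.card (P : Subgroup G) := by
      apply P.dvd_card_of_dvd_card
      rw [← hzo]
      exact orderOf_dvd_natCard z
    rw [h2] at h3
    exact hp.ne_one (Nat.dvd_one.mp h3)
  have hNcomm := h.comm_of_normal N hNtop
  apply isSolvable_of_comm_of_quot N
  have hqp : IsPGroup p (G ⧸ N) := by
    obtain ⟨k, hk⟩ := P.isPGroup'.exists_card_eq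
    apply IsPGroup.of_card (n := k)
    rw [← hk]
    exact hNc.symm.index_eq_card
  have := hqp.isNilpotent
  infer_instance

/-- A finite group all of whose nontrivial subgroups are self-normalizing is solvable. -/
theorem isSolvable_of_all_selfNormalizing {Q : Type*} [Group Q] [Finite Q]
    (h : ∀ H : Subgroup Q, H ≠ ⊥ → Subgroup.normalizer (H : Set Q) = H) : Group.IsSolvable Q := by
  by_cases htriv : Subsingleton Q
  · infer_instance
  have hnt : Nontrivial Q := not_subsingleton_iff_nontrivial.mp htriv
  have hc1 : Nat.card Q ≠ 1 := by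
    intro h1
    exact htriv (Finite.card_le_one_iff_subsingleton.mp h1.le)
  obtain ⟨q, hq, hqd⟩ := Nat.exists_prime_and_dvd hc1
  have : Fact q.Prime := ⟨hq⟩
  obtain ⟨S⟩ : Nonempty (Sylow q Q) := inferInstance
  have hSne : (S : Subgroup Q) ≠ ⊥ := by
    intro hb
    have h3 : q ∣ Nat.card (S : Subgroup Q) := S.dvd_card_of_dvd_card hqd
    rw [hb, Subgroup.card_bot] at h3
    exact hq.ne_one (Nat.dvd_one.mp h3)
  have hScomm : ∀ a ∈ (S : Subgroup Q), ∀ b ∈ (S : Subgroup Q), a * b = b * a := by
    have hSnt : Nontrivial (S : Subgroup Q) := (Subgroup.nontrivial_iff_ne_bot _).mpr hSne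
    have hcn := S.isPGroup'.center_nontrivial
    set Z := (Subgroup.center (S : Subgroup Q)).map (S : Subgroup Q).subtype with hZdef
    have hZne : Z ≠ ⊥ := by
      intro hb
      rw [hZdef, Subgroup.map_eq_bot_iff_of_injective _ (Subgroup.subtype_injective _)] at hb
      exact (Subgroup.nontrivial_iff_ne_bot _).mp hcn hb
    have hZ := h Z hZne
    have hSZ : (S : Subgroup Q) ≤ Z := by
      rw [← hZ, Subgroup.le_normalizer_iff]
      rintro s hs _ ⟨z, hz, rfl⟩
      have h1 := Subgroup.mem_center_iff.mp hz ⟨s, hs⟩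
      have h2 : s * (z : Q) = z * s := congrArg Subtype.val h1
      refine ⟨z, hz, ?_⟩
      rw [Subgroup.coe_subtype, h2, mul_inv_cancel_right]
    intro a ha b hb
    obtain ⟨z, hz, rfl⟩ := hSZ hb
    exact congrArg Subtype.val (Subgroup.mem_center_iff.mp hz ⟨a, ha⟩)
  have hNC : Subgroup.normalizer ((S : Subgroup Q) : Set Q) ≤
      Subgroup.centralizer ((S : Subgroup Q) : Set Q) := by
    rw [h S hSne]
    intro a ha
    rw [Subgroup.mem_centralizer_iff]
    intro b hb
    exact hScomm b hb a ha
  have hcompl := MonoidHom.ker_transferSylow_isComplement' S hNC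
  set T := (MonoidHom.transferSylow S hNC).ker with hT
  have hTb : T = ⊥ := by
    by_contra hTne
    have h1 := h T hTne
    rw [Subgroup.normalizer_eq_top] at h1
    rw [← h1] at hcompl
    exact hSne (Subgroup.isComplement'_top_left.mp hcompl)
  rw [hTb] at hcompl
  have hStop : (S : Subgroup Q) = ⊤ := Subgroup.isComplement'_bot_left.mp hcompl
  have hQ : IsPGroup q Q := by
    have := S.isPGroup'
    rw [hStop] at this
    exact this.of_equiv Subgroup.topEquiv
  have := hQ.isNilpotent
  infer_instance

/-- A finite group with all non-abelian subgroups self-normalizing is solvable or simple. -/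
theorem SN.solvable_or_simple {G : Type*} [Group G] [Finite G] (h : SN G) :
    Group.IsSolvable G ∨ IsSimpleGroup G := by
  by_cases hs : IsSimpleGroup G
  · right; exact hs
  left
  by_cases htriv : Subsingleton G
  · infer_instance
  have hnt : Nontrivial G := not_subsingleton_iff_nontrivial.mp htriv
  have hex : ∃ N : Subgroup G, N.Normal ∧ N ≠ ⊥ ∧ N ≠ ⊤ := by
    by_contra hcon
    push Not at hcon
    exact hs ⟨fun N hN => or_iff_not_imp_left.mpr (hcon N hN)⟩
  obtain ⟨N, hNn, hNb, hNt⟩ := hex
  have hNc := h.comm_of_normal N hNt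
  set A := Subgroup.centralizer (N : Set G) with hAdef
  have hAn : A.Normal := Subgroup.normal_centralizer
  by_cases hA : A = ⊤
  · apply h.isSolvable_of_center
    intro hZ
    apply hNb
    rw [eq_bot_iff, ← hZ]
    exact Subgroup.centralizer_eq_top_iff_subset.mp hA
  have hAc := h.comm_of_normal A hA
  have hNA : N ≤ A := by
    intro n hn
    rw [hAdef, Subgroup.mem_centralizer_iff]
    intro m hm
    exact congrArg Subtype.val (hNc.is_comm.comm (⟨m, hm⟩ : N) ⟨n, hn⟩)
  have hCA : Subgroup.centralizer (A : Set G) ≤ A := Subgroup.centralizer_le hNA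
  apply isSolvable_of_comm_of_quot A
  apply isSolvable_of_all_selfNormalizing
  intro Hb hHb
  set H := Hb.comap (QuotientGroup.mk' A) with hH
  have hAH : A ≤ H := by
    intro a ha
    rw [hH, Subgroup.mem_comap]
    have : QuotientGroup.mk' A a = 1 := (QuotientGroup.eq_one_iff a).mpr ha
    rw [this]
    exact one_mem _
  have hnc : ¬ IsMulCommutative H := by
    intro hc
    apply hHb
    rw [eq_bot_iff]
    intro xb hxb
    obtain ⟨x, rfl⟩ := QuotientGroup.mk'_surjective A xb
    rw [Subgroup.mem_bot]
    apply (QuotientGroup.eq_one_iff x).mpr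
    apply hCA
    rw [Subgroup.mem_centralizer_iff]
    intro a ha
    exact congrArg Subtype.val (hc.is_comm.comm (⟨a, hAH ha⟩ : H) ⟨x, hxb⟩)
  have hHn := h H hnc
  apply le_antisymm _ Subgroup.le_normalizer
  intro xb hxb
  obtain ⟨x, rfl⟩ := QuotientGroup.mk'_surjective A xb
  have hx : x ∈ Subgroup.normalizer (H : Set G) := by
    rw [Subgroup.mem_normalizer_iff]
    intro y
    have := Subgroup.mem_normalizer_iff.mp hxb (QuotientGroup.mk' A y)
    simp only [hH, Subgroup.mem_comap, map_mul, map_inv]
    exact this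
  rw [hHn] at hx
  exact hx

end Cfsg.Agent.Lib.Helper71
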