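import Mathlib
import Cfsg.Agent.Lib.Helper14.Basic

set_option autoImplicit false

namespace Cfsg.Agent.Lib.Helper71

/-- A nontrivial finite solvable group has a normal subgroup of prime index. -/
theorem exists_normal_index_prime (G : Type*) [Group G] [Finite G] [Group.IsSolvable G]
    [Nontrivial G] : ∃ (M : Subgroup G) (p : ℕ), p.Prime ∧ M.Normal ∧ M.index = p := by
  have hlt : commutator G < ⊤ := Group.IsSolvable.commutator_lt_top_of_nontrivial G
  have hQ : Nontrivial (Abelianization G) := by
    rw [Abelianization]
    exact QuotientGroup.nontrivial_iff.mpr hlt.ne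
  have hc1 : Nat.card (Abelianization G) ≠ 1 := by
    intro h1
    have := Finite.card_le_one_iff_subsingleton.mp h1.le
    exact not_subsingleton _ this
  obtain ⟨p, hp, hpd⟩ := Nat.exists_prime_and_dvd hc1
  have : Fact p.Prime := ⟨hp⟩
  obtain ⟨y, hy⟩ := exists_prime_orderOf_dvd_card' p hpd
  let f : Abelianization G →* Abelianization G := powMonoidHom p
  have hnot : ¬ Function.Injective f := by
    intro hinj
    have h1 : f y = f 1 := by
      change y ^ p = 1 ^ p
      rw [one_pow, ← hy, pow_orderOf_eq_one]
    have h2 := hinj h1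
    rw [h2, orderOf_one] at hy
    exact hp.ne_one hy.symm
  have hrange : f.range ≠ ⊤ := by
    intro htop
    exact hnot (Finite.injective_iff_surjective.mpr (MonoidHom.range_eq_top.mp htop))
  have hD : Nontrivial (Abelianization G ⧸ f.range) := QuotientGroup.nontrivial_iff.mpr hrange
  have hDp : IsPGroup p (Abelianization G ⧸ f.range) := by
    intro d
    obtain ⟨q, rfl⟩ := QuotientGroup.mk'_surjective f.range d
    refine ⟨1, ?_⟩
    rw [pow_one, ← map_pow]
    exact (QuotientGroup.eq_one_iff _).mpr ⟨q, rfl⟩
  obtain ⟨K, hKn, hKi⟩ := Cfsg.Agent.Lib.Helper14.exists_normal_index_p hDp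
  refine ⟨K.comap ((QuotientGroup.mk' f.range).comp Abelianization.of), p, hp, inferInstance, ?_⟩
  rw [Subgroup.index_comap_of_surjective, hKi]
  exact (QuotientGroup.mk'_surjective f.range).comp (QuotientGroup.mk'_surjective (commutator G))

end Cfsg.Agent.Lib.Helper71
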